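import Mathlib

/-!
# `A8`: commutators with an element of order 7, generation by five involutions (helper834, for `3.Fi24'`)
-/

set_option autoImplicit false
set_option maxRecDepth 100000

namespace Cfsg.Agent.H834.R4

open Equiv Equiv.Perm

/-- a permutation from two lists -/
def mkP (f g : Fin 8 → Fin 8) (h : ∀ i, g (f i) = i := by decide) (h' : ∀ i, f (g i) = i := by decide) :
    Perm (Fin 8) := ⟨f, g, h, h'⟩

/-- the cycle `(0 1 2 3 4 5 6)` -/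
def c7 : Perm (Fin 8) := mkP ![1, 2, 3, 4, 5, 6, 0, 7] ![6, 0, 1, 2, 3, 4, 5, 7]

/-- a commutator of a 7-cycle and an even permutation -/
def Wt (a : Perm (Fin 8)) : Prop := ∃ τ b : Perm (Fin 8), sign b = 1 ∧
  a = (τ * c7 * τ⁻¹) * b * (τ * c7 * τ⁻¹)⁻¹ * b⁻¹

theorem Wt.conj {a : Perm (Fin 8)} (h : Wt a) (g : Perm (Fin 8)) : Wt (g * a * g⁻¹) := by
  obtain ⟨τ, b, hb, rfl⟩ := h
  refine ⟨g * τ, g * b * g⁻¹, ?_, by group⟩
  rw [map_mul, map_mul, hb, mul_one, ← map_mul, mul_inv_cancel, map_one]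

theorem Wt_one : Wt 1 := ⟨1, 1, map_one _, by group⟩

def r22 : Perm (Fin 8) := mkP ![1, 0, 3, 2, 4, 5, 6, 7] ![1, 0, 3, 2, 4, 5, 6, 7]
def r2222 : Perm (Fin 8) := mkP ![1, 0, 3, 2, 5, 4, 7, 6] ![1, 0, 3, 2, 5, 4, 7, 6]
def r42 : Perm (Fin 8) := mkP ![1, 2, 3, 0, 5, 4, 6, 7] ![3, 0, 1, 2, 5, 4, 6, 7]
def r44 : Perm (Fin 8) := mkP ![1, 2, 3, 0, 5, 6, 7, 4] ![3, 0, 1, 2, 7, 4, 5, 6]

theorem ct22 : r22.cycleType = {2, 2} := by decide +kernel
theorem ct2222 : r2222.cycleType = {2, 2, 2, 2} := by decide +kernel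
theorem ct42 : r42.cycleType = {4, 2} := by decide +kernel
theorem ct44 : r44.cycleType = {4, 4} := by decide +kernel

theorem Wt_22 : Wt r22 := ⟨mkP ![7, 4, 5, 0, 1, 3, 6, 2] ![3, 4, 7, 5, 1, 2, 6, 0],
  mkP ![1, 2, 0, 3, 4, 5, 6, 7] ![2, 0, 1, 3, 4, 5, 6, 7], by decide +kernel, by decide +kernel⟩
theorem Wt_2222 : Wt r2222 := ⟨mkP ![1, 4, 5, 3, 7, 0, 2, 6] ![5, 0, 6, 3, 1, 2, 7, 4],
  mkP ![0, 6, 3, 5, 7, 1, 4, 2] ![0, 5, 7, 2, 6, 3, 1, 4], by decide +kernel, by decide +kernel⟩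
theorem Wt_42 : Wt r42 := ⟨mkP ![6, 2, 5, 4, 1, 7, 3, 0] ![7, 4, 1, 6, 3, 2, 0, 5],
  mkP ![5, 0, 7, 6, 4, 2, 1, 3] ![1, 6, 5, 7, 4, 0, 3, 2], by decide +kernel, by decide +kernel⟩
theorem Wt_44 : Wt r44 := ⟨mkP ![5, 4, 2, 6, 0, 1, 3, 7] ![4, 5, 2, 6, 1, 0, 3, 7],
  mkP ![1, 2, 3, 5, 6, 7, 4, 0] ![7, 0, 1, 2, 6, 3, 4, 5], by decide +kernel, by decide +kernel⟩

theorem Wt_of {a r : Perm (Fin 8)} (h : a.cycleType = r.cycleType) (hr : Wt r) : Wt a := by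
  obtain ⟨g, hg⟩ := isConj_iff.1 (isConj_iff_cycleType_eq.2 h.symm)
  rw [← hg]
  exact hr.conj g

/-- **An even 2-element is a commutator of a 7-cycle and an even permutation.** -/
theorem wt_all {a : Perm (Fin 8)} (hs : sign a = 1) {n : ℕ} (h2 : a ^ 2 ^ n = 1) : Wt a := by
  set m := a.cycleType with hm
  have hsum : m.sum ≤ 8 := by
    have := sum_cycleType_le a
    rwa [Fintype.card_fin] at this
  have hd : ∀ d ∈ m, d = 2 ∨ d = 4 ∨ d = 8 := by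
    intro d hd
    have h3 : d ∣ 2 ^ n := (dvd_of_mem_cycleType hd).trans (orderOf_dvd_of_pow_eq_one h2)
    obtain ⟨k, -, rfl⟩ := (Nat.dvd_prime_pow Nat.prime_two).1 h3
    have h4 : 2 ^ k ≤ 8 := (Multiset.single_le_sum (fun x _ => Nat.zero_le x) _ hd).trans hsum
    have h5 := two_le_of_mem_cycleType hd
    have h6 : k ≤ 3 := by
      by_contra h
      have : 2 ^ 4 ≤ 2 ^ k := Nat.pow_le_pow_right (by norm_num) (by omega)
      omega
    interval_cases k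
    · omega
    · exact Or.inl rfl
    · exact Or.inr (Or.inl rfl)
    · exact Or.inr (Or.inr rfl)
  have hge : ∀ s : Multiset ℕ, s ≤ m → 2 * s.card ≤ s.sum := by
    intro s hs
    have := Multiset.card_nsmul_le_sum (s := s) (a := 2) (fun x hx => by
      rcases hd x (Multiset.mem_of_le hs hx) with h | h | h <;> omega)
    rwa [smul_eq_mul, mul_comm] at this
  have hev : Even (m.sum + m.card) := by
    have h3 := sign_of_cycleType a
    rw [hs, ← hm] at h3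
    by_contra h4
    rw [Nat.not_even_iff_odd] at h4
    rw [h4.neg_one_pow] at h3
    exact absurd h3 (by decide)
  have hse : Even m.sum := by
    have key : ∀ s : Multiset ℕ, (∀ d ∈ s, d = 2 ∨ d = 4 ∨ d = 8) → Even s.sum := by
      intro s
      induction s using Multiset.induction_on with
      | empty => intro _; simp
      | cons x s ih =>
        intro h
        rw [Multiset.sum_cons]
        refine Even.add ?_ (ih fun d hd => h d (Multiset.mem_cons_of_mem hd))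
        rcases h x (Multiset.mem_cons_self x s) with h | h | h <;> rw [h] <;> decide
    exact key m hd
  have hce : Even m.card := (Nat.even_add.1 hev).1 hse
  have hc4 : 2 * m.card ≤ 8 := (hge m le_rfl).trans hsum
  have hcard : m.card = 0 ∨ m.card = 2 ∨ m.card = 4 := by
    obtain ⟨k, hk⟩ := hce
    omega
  rcases hcard with hc | hc | hc
  · rw [Multiset.card_eq_zero, hm, cycleType_eq_zero] at hc
    rw [hc]
    exact Wt_one
  · obtain ⟨x, y, hxy⟩ := Multiset.card_eq_two.1 hc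
    have hx := hd x (by rw [hxy]; simp)
    have hy := hd y (by rw [hxy]; simp)
    have hs2 : x + y ≤ 8 := by
      rw [hxy] at hsum
      simpa using hsum
    rcases hx with rfl | rfl | rfl <;> rcases hy with rfl | rfl | rfl
    · exact Wt_of (hxy.trans ct22.symm) Wt_22
    · exact Wt_of (hxy.trans ((Multiset.pair_comm 2 4).trans ct42.symm)) Wt_42
    · omega
    · exact Wt_of (hxy.trans ct42.symm) Wt_42
    · exact Wt_of (hxy.trans ct44.symm) Wt_44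
    · omega
    · omega
    · omega
    · omega
  · have h3 : m = Multiset.replicate 4 2 := by
      rw [Multiset.eq_replicate]
      refine ⟨hc, fun b hb => ?_⟩
      obtain ⟨s, hs⟩ := Multiset.exists_cons_of_mem hb
      have h4 : s ≤ m := by rw [hs]; exact Multiset.le_cons_self s b
      have h5 := hge s h4
      have h6 : m.card = s.card + 1 := by rw [hs, Multiset.card_cons]
      have h7 : m.sum = b + s.sum := by rw [hs, Multiset.sum_cons]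
      rcases hd b hb with h | h | h <;> omega
    exact Wt_of (h3.trans ct2222.symm) Wt_2222

/-! ### Generation -/

/-- the cycle `(a b c)` -/
def cyc (a b c : Fin 8) : Perm (Fin 8) := swap a b * swap b c

theorem cyc_five : ∀ x y : Fin 8, x ≠ 4 ∧ x ≠ 5 ∧ y ≠ 4 ∧ y ≠ 5 ∧ x ≠ y →
    cyc 4 5 x * cyc 4 5 y * (cyc 4 5 x)⁻¹ = cyc 5 x y := by decide +kernel

theorem cyc_four : ∀ x y : Fin 8, x ≠ 4 ∧ x ≠ 5 ∧ y ≠ 4 ∧ y ≠ 5 ∧ x ≠ y →
    (cyc 4 5 x)⁻¹ * cyc 4 5 y * cyc 4 5 x = cyc 4 y x := by decide +kernel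

theorem cyc_none : ∀ x y z : Fin 8, x ≠ 4 → x ≠ 5 → y ≠ 4 → y ≠ 5 → z ≠ 4 → z ≠ 5 → x ≠ y → x ≠ z → y ≠ z →
    cyc 4 5 x * cyc 5 y z * (cyc 4 5 x)⁻¹ = cyc x y z := by decide +kernel

theorem cyc_rot : ∀ x y z : Fin 8, x ≠ y → x ≠ z → y ≠ z → cyc x y z = cyc y z x := by decide +kernel

theorem cyc_inv45 : ∀ x : Fin 8, x ≠ 4 → x ≠ 5 → (cyc 4 5 x)⁻¹ = cyc 5 4 x := by decide +kernel

theorem alt_le {Γ : Subgroup (Perm (Fin 8))} (h : ∀ i : Fin 8, i ≠ 4 → i ≠ 5 → cyc 4 5 i ∈ Γ) :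
    alternatingGroup (Fin 8) ≤ Γ := by
  have h54 : ∀ i : Fin 8, i ≠ 4 → i ≠ 5 → cyc 5 4 i ∈ Γ := fun i h1 h2 => by
    rw [← cyc_inv45 i h1 h2]; exact Γ.inv_mem (h i h1 h2)
  have h5 : ∀ x y : Fin 8, x ≠ 5 → y ≠ 5 → x ≠ y → cyc 5 x y ∈ Γ := by
    intro x y hx5 hy5 hxy
    by_cases hx : x = 4
    · rw [hx]; exact h54 y (by rintro rfl; exact hxy hx) hy5
    by_cases hy : y = 4
    · rw [hy, ← cyc_rot 4 5 x (by decide) (Ne.symm hx) (Ne.symm hx5)]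
      exact h x hx hx5
    rw [← cyc_five x y ⟨hx, hx5, hy, hy5, hxy⟩]
    exact Γ.mul_mem (Γ.mul_mem (h x hx hx5) (h y hy hy5)) (Γ.inv_mem (h x hx hx5))
  have h4 : ∀ x y : Fin 8, x ≠ 4 → y ≠ 4 → x ≠ y → cyc 4 x y ∈ Γ := by
    intro x y hx4 hy4 hxy
    by_cases hx : x = 5
    · rw [hx]; exact h y hy4 (by rintro rfl; exact hxy hx)
    by_cases hy : y = 5
    · rw [hy, ← cyc_rot 5 4 x (by decide) (Ne.symm hx) (Ne.symm hx4)]
      exact h54 x hx4 hx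
    rw [← cyc_four y x ⟨hy4, hy, hx4, hx, Ne.symm hxy⟩]
    exact Γ.mul_mem (Γ.mul_mem (Γ.inv_mem (h y hy4 hy)) (h x hx4 hx)) (h y hy4 hy)
  have hall : ∀ x y z : Fin 8, x ≠ y → x ≠ z → y ≠ z → cyc x y z ∈ Γ := by
    intro x y z hxy hxz hyz
    by_cases a1 : x = 4
    · rw [a1]; exact h4 y z (by rintro rfl; exact hxy a1) (by rintro rfl; exact hxz a1) hyz
    by_cases a2 : x = 5
    · rw [a2]; exact h5 y z (by rintro rfl; exact hxy a2) (by rintro rfl; exact hxz a2) hyz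
    by_cases b1 : y = 4
    · rw [cyc_rot x y z hxy hxz hyz, b1]
      exact h4 z x (by rintro rfl; exact hyz b1) a1 (Ne.symm hxz)
    by_cases b2 : y = 5
    · rw [cyc_rot x y z hxy hxz hyz, b2]
      exact h5 z x (by rintro rfl; exact hyz b2) a2 (Ne.symm hxz)
    by_cases c1 : z = 4
    · rw [cyc_rot x y z hxy hxz hyz, cyc_rot y z x hyz (Ne.symm hxy) (Ne.symm hxz), c1]
      exact h4 x y a1 b1 hxy
    by_cases c2 : z = 5
    · rw [cyc_rot x y z hxy hxz hyz, cyc_rot y z x hyz (Ne.symm hxy) (Ne.symm hxz), c2]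
      exact h5 x y a2 b2 hxy
    rw [← cyc_none x y z a1 a2 b1 b2 c1 c2 hxy hxz hyz]
    exact Γ.mul_mem (Γ.mul_mem (h x a1 a2) (h5 y z b2 c2 hyz)) (Γ.inv_mem (h x a1 a2))
  rw [← closure_three_cycles_eq_alternating, Subgroup.closure_le]
  intro g hg
  have hg3 : g.IsThreeCycle := hg
  have hne : g.support.Nonempty := by
    rw [← Finset.card_pos, hg3.card_support]; norm_num
  obtain ⟨a, ha⟩ := hne
  have hn := hg3.nodup_iff_mem_support.2 ha
  have he := hg3.eq_swap_mul_swap_iff_mem_support.2 ha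
  simp only [List.nodup_cons, List.mem_cons, List.not_mem_nil, or_false, not_or, List.nodup_nil, and_true,
    not_false_eq_true] at hn
  rw [SetLike.mem_coe, he]
  exact hall a (g a) (g (g a)) hn.1.1 hn.1.2 hn.2

/-- the five involutions -/
def sc : Perm (Fin 8) := mkP ![5, 1, 2, 3, 4, 0, 7, 6] ![5, 1, 2, 3, 4, 0, 7, 6]
def sd : Perm (Fin 8) := mkP ![0, 1, 2, 4, 3, 5, 7, 6] ![0, 1, 2, 4, 3, 5, 7, 6]
def sf : Perm (Fin 8) := mkP ![0, 1, 3, 2, 4, 6, 5, 7] ![0, 1, 3, 2, 4, 6, 5, 7]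
def si : Perm (Fin 8) := mkP ![0, 1, 2, 3, 5, 4, 7, 6] ![0, 1, 2, 3, 5, 4, 7, 6]
def sj : Perm (Fin 8) := mkP ![0, 2, 1, 3, 4, 5, 7, 6] ![0, 2, 1, 3, 4, 5, 7, 6]

theorem wd0 : cyc 4 5 0 = si * sc := by decide +kernel
theorem wd1 : cyc 4 5 1 = sj * sf * sd * sc * si * sc * sf * sj * si * sc := by decide +kernel
theorem wd2 : cyc 4 5 2 = sc * sf * sd * sc * si * sc * sf * sc := by decide +kernel
theorem wd3 : cyc 4 5 3 = sd * si := by decide +kernel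
theorem wd6 : cyc 4 5 6 = sf * sc * si * sf * si * sc := by decide +kernel
theorem wd7 : cyc 4 5 7 = sc * sf * sc * si * sf * sc := by decide +kernel

/-- **generation of `A8`** -/
theorem alt_le' {Γ : Subgroup (Perm (Fin 8))} (hc : sc ∈ Γ) (hd : sd ∈ Γ) (hf : sf ∈ Γ) (hi : si ∈ Γ) (hj : sj ∈ Γ) :
    alternatingGroup (Fin 8) ≤ Γ := by
  apply alt_le
  intro i h4 h5
  fin_cases i
  · show cyc 4 5 0 ∈ Γ
    rw [wd0]; exact Γ.mul_mem hi hc
  · show cyc 4 5 1 ∈ Γ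
    rw [wd1]
    exact Γ.mul_mem (Γ.mul_mem (Γ.mul_mem (Γ.mul_mem (Γ.mul_mem (Γ.mul_mem (Γ.mul_mem (Γ.mul_mem (Γ.mul_mem hj hf) hd)
      hc) hi) hc) hf) hj) hi) hc
  · show cyc 4 5 2 ∈ Γ
    rw [wd2]
    exact Γ.mul_mem (Γ.mul_mem (Γ.mul_mem (Γ.mul_mem (Γ.mul_mem (Γ.mul_mem (Γ.mul_mem hc hf) hd) hc) hi) hc) hf) hc
  · show cyc 4 5 3 ∈ Γ
    rw [wd3]; exact Γ.mul_mem hd hi
  · exact absurd rfl h4
  · exact absurd rfl h5
  · show cyc 4 5 6 ∈ Γ
    rw [wd6]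
    exact Γ.mul_mem (Γ.mul_mem (Γ.mul_mem (Γ.mul_mem (Γ.mul_mem hf hc) hi) hf) hi) hc
  · show cyc 4 5 7 ∈ Γ
    rw [wd7]
    exact Γ.mul_mem (Γ.mul_mem (Γ.mul_mem (Γ.mul_mem (Γ.mul_mem hc hf) hc) hi) hf) hc

/-! ### The normalizer of the 7-cycle -/

def pp : Perm (Fin 8) := mkP ![4, 3, 6, 2, 0, 5, 1, 7] ![4, 6, 3, 1, 0, 5, 2, 7]
def qq : Perm (Fin 8) := mkP ![5, 0, 1, 6, 3, 4, 2, 7] ![1, 2, 6, 4, 5, 0, 3, 7]

theorem pp_even : sign pp = 1 := by decide +kernel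
theorem qq_even : sign qq = 1 := by decide +kernel
theorem c7_even : sign c7 = 1 := by decide +kernel
theorem c7_pow : c7 ^ 7 = 1 := by decide +kernel
theorem c7_ne : c7 ≠ 1 := by decide +kernel

/-- the commutator of `pp` and `qq` induces the square on `c7` -/
theorem pq_c7 : (pp * qq * pp⁻¹ * qq⁻¹) * c7 * (pp * qq * pp⁻¹ * qq⁻¹)⁻¹ = c7 * c7 := by decide +kernel

/-- invariants of `c7` -/
theorem c7_inv {ε : Fin 8 → Prop} (h : ∀ i, ε (c7 i) ↔ ε i) : ∀ i j : Fin 8, i ≠ 7 → j ≠ 7 → (ε i ↔ ε j) := by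
  have h0 : ∀ i : Fin 8, i ≠ 7 → (ε i ↔ ε 0) := by
    have e0 : ε 1 ↔ ε 0 := h 0
    have e1 : ε 2 ↔ ε 1 := h 1
    have e2 : ε 3 ↔ ε 2 := h 2
    have e3 : ε 4 ↔ ε 3 := h 3
    have e4 : ε 5 ↔ ε 4 := h 4
    have e5 : ε 6 ↔ ε 5 := h 5
    intro i hi
    fin_cases i
    · exact Iff.rfl
    · exact e0
    · exact e1.trans e0
    · exact e2.trans (e1.trans e0)
    · exact e3.trans (e2.trans (e1.trans e0))
    · exact e4.trans (e3.trans (e2.trans (e1.trans e0)))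
    · exact e5.trans (e4.trans (e3.trans (e2.trans (e1.trans e0))))
    · exact absurd rfl hi
  intro i j hi hj
  exact (h0 i hi).trans (h0 j hj).symm

end Cfsg.Agent.H834.R4
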