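import Cfsg.Agent.H834.R4.Oct
import Cfsg.Agent.H834.R4.AEight

/-!
# `Fi24`: the stabilizer of the eight transpositions in `C(l, k)` (helper834, for `3.Fi24'`)

* `Act n σ` : `n` permutes the eight transpositions by `σ`;
* `exists_act` : every even permutation comes from `C(l, k) ∩ Fi24'`;
* `EE` : the homomorphism of `2^8` onto `DD`, `EE_ker`, `card_DD`;
* `conj_N` : every 2-element of `C(l, k)` is conjugate into the stabilizer; `even_of_act`.
-/

set_option autoImplicit false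
set_option maxRecDepth 100000
set_option exponentiation.threshold 30000

namespace Cfsg.Agent.H834.R4

open Cfsg Cfsg.Agent.Lib.PermNet Cfsg.Agent.Lib.PermNetPt
open Cfsg.Agent.Fischer.Fi24RepDef Cfsg.Agent.Fischer.Fi24Rep
open Cfsg.Agent.Fischer.Fi24Spider (word_append word_cons word_nil)
open Cfsg.Agent.KFacts.FiTF.Pts Cfsg.Agent.KFacts.FiTF.FixMask
open Cfsg.Agent.R08.FiTwentyFour (L)
open Cfsg.Agent.LThreeFi24.FiveConj (eqB eq_of_eqB)
open Cfsg.Agent.H840.LkK (AL)
open Cfsg.Agent.H840.Lk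
open Cfsg.Spor (Fi24)
open Cfsg.Spor.Fi24 (Gen)
open Subgroup Equiv

/-- `n` permutes the eight transpositions by `σ` -/
def Act (n : Fi24) (σ : Perm (Fin 8)) : Prop := ∀ i, n * dq i * n⁻¹ = dq (σ i)

theorem Act.one : Act 1 1 := fun i => by
  show 1 * dq i * 1⁻¹ = dq i
  group

theorem Act.mul {n m : Fi24} {σ τ : Perm (Fin 8)} (h : Act n σ) (h' : Act m τ) : Act (n * m) (σ * τ) := fun i => by
  show n * m * dq i * (n * m)⁻¹ = dq (σ (τ i))
  rw [← h, ← h']
  group

theorem Act.inv {n : Fi24} {σ : Perm (Fin 8)} (h : Act n σ) : Act n⁻¹ σ⁻¹ := fun i => by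
  have h1 := h (σ⁻¹ i)
  have h2 : σ (σ⁻¹ i) = i := σ.apply_symm_apply i
  rw [h2] at h1
  rw [← h1]
  group

theorem Act.uniq {n : Fi24} {σ τ : Perm (Fin 8)} (h : Act n σ) (h' : Act n τ) : σ = τ := by
  ext i
  have h1 : dq (σ i) = dq (τ i) := by rw [← h, ← h']
  rw [dq_inj h1]

theorem Act.pow {n : Fi24} {σ : Perm (Fin 8)} (h : Act n σ) (m : ℕ) : Act (n ^ m) (σ ^ m) := by
  induction m with
  | zero => rw [pow_zero, pow_zero]; exact Act.one
  | succ m ih => rw [pow_succ, pow_succ]; exact ih.mul h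

theorem Act.comm {n : Fi24} {σ τ : Perm (Fin 8)} {m : Fi24} (h : Act n σ) (h' : Act m τ) :
    Act (n * m * n⁻¹ * m⁻¹) (σ * τ * σ⁻¹ * τ⁻¹) := ((h.mul h').mul h.inv).mul h'.inv

theorem act_one_iff {n : Fi24} : Act n 1 ↔ ∀ i, Commute n (dq i) :=
  ⟨fun h i => mul_inv_eq_iff_eq_mul.1 (h i), fun h i => mul_inv_eq_iff_eq_mul.2 (h i).eq⟩

theorem act_DD {n : Fi24} (h : n ∈ DD) : Act n 1 := act_one_iff.2 fun i => DD_comm h (dq_DD i)

theorem mem_DD_of_act {n : Fi24} (hn : n ∈ Clk) (h : Act n 1) : n ∈ DD := mem_DD ⟨hn, act_one_iff.1 h⟩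

/-! ### The even permutations -/

theorem act_of_chk {w : List Gen} {f : Fin 8 → Fin 8} (h : actB w f = true) {σ : Perm (Fin 8)} (hσ : ∀ i, σ i = f i) :
    Act (word w) σ := by
  intro i
  unfold actB at h
  rw [List.all_eq_true] at h
  have h1 := chk_iff.1 (h i (List.mem_finRange i))
  rw [hσ i]
  exact (isPt_dq i).conj_eq (isPt_dq (f i)) h1

theorem wn_eq (x : Gen) (A : List (Fin 8)) : word (wn x A) = (gen x * (A.map dq).prod) * (gen x * (A.map dq).prod) := by
  unfold wn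
  rw [word_append, word_cons, word_wA]

theorem comm_index : (commutator Fi24).index = 2 := Cfsg.Agent.R08.FiTwentyFour.index_commutator

theorem wn_mem {x : Gen} (hx : gen x ∈ Clk) (A : List (Fin 8)) :
    word (wn x A) ∈ Clk ∧ word (wn x A) ∈ commutator Fi24 := by
  rw [wn_eq]
  have h1 : gen x * (A.map dq).prod ∈ Clk := Clk.mul_mem hx (DD_le (prod_DD A))
  exact ⟨Clk.mul_mem h1 h1, mul_self_mem_of_index_two comm_index _⟩

/-- the permutations induced by `C(l, k) ∩ Fi24'` -/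
def Γ8 : Subgroup (Perm (Fin 8)) where
  carrier := {σ | ∃ n ∈ Clk, n ∈ commutator Fi24 ∧ Act n σ}
  mul_mem' := by
    rintro σ τ ⟨n, h1, h2, h3⟩ ⟨m, h4, h5, h6⟩
    exact ⟨n * m, Clk.mul_mem h1 h4, mul_mem h2 h5, h3.mul h6⟩
  one_mem' := ⟨1, Clk.one_mem, one_mem _, Act.one⟩
  inv_mem' := by
    rintro σ ⟨n, h1, h2, h3⟩
    exact ⟨n⁻¹, Clk.inv_mem h1, inv_mem h2, h3.inv⟩

theorem j_Clk : gen .j ∈ Clk := (mem_Dlk.1 j_Dlk).2

theorem alt_le_Γ8 : alternatingGroup (Fin 8) ≤ Γ8 := by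
  have key : ∀ {x : Gen} {A : List (Fin 8)} {f : Fin 8 → Fin 8} {σ : Perm (Fin 8)}, gen x ∈ Clk →
      actB (wn x A) f = true → (∀ i, σ i = f i) → σ ∈ Γ8 := fun hx h hσ =>
    ⟨_, (wn_mem hx _).1, (wn_mem hx _).2, act_of_chk h hσ⟩
  refine alt_le' ?_ ?_ ?_ ?_ ?_
  · exact key (gen_Clk .c (by decide)) acc (by decide)
  · exact key (gen_Clk .d (by decide)) acd (by decide)
  · exact key (gen_Clk .f (by decide)) acf (by decide)
  · exact key (gen_Clk .i (by decide)) aci (by decide)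
  · exact key j_Clk acj (by decide)

theorem exists_act {σ : Perm (Fin 8)} (h : Perm.sign σ = 1) : ∃ n ∈ Clk, n ∈ commutator Fi24 ∧ Act n σ :=
  alt_le_Γ8 (Perm.mem_alternatingGroup.2 h)

/-! ### The structure of `DD` -/

noncomputable instance instDD : CommGroup DD := { (inferInstance : Group DD) with mul_comm := fun a b => Subtype.ext (DD_comm a.2 b.2) }

noncomputable def ed (i : Fin 8) : DD := ⟨dq i, dq_DD i⟩

theorem ed_sq (i : Fin 8) : ed i ^ 2 = 1 := Subtype.ext (by rw [pow_two]; exact dq_sq i)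

/-- the elements of `DD` -/
noncomputable def EE (v : Fin 8 → ZMod 2) : DD := ∏ i, ed i ^ (v i).val

theorem EE_add (v w : Fin 8 → ZMod 2) : EE (v + w) = EE v * EE w := by
  unfold EE
  rw [← Finset.prod_mul_distrib]
  refine Finset.prod_congr rfl fun i _ => ?_
  rw [Pi.add_apply, ZMod.val_add, ← pow_add]
  exact (pow_eq_pow_mod _ (ed_sq i)).symm

theorem EE_zero : EE 0 = 1 := by
  unfold EE
  refine Finset.prod_eq_one fun i _ => ?_
  rw [Pi.zero_apply, ZMod.val_zero, pow_zero]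

theorem EE_single (i : Fin 8) : EE (Pi.single i 1) = ed i := by
  unfold EE
  rw [Finset.prod_eq_single i]
  · rw [Pi.single_eq_same]
    exact pow_one _
  · intro j _ hj
    rw [Pi.single_eq_of_ne hj, ZMod.val_zero, pow_zero]
  · intro h
    exact absurd (Finset.mem_univ i) h

/-- the homomorphism -/
noncomputable def EEh : Multiplicative (Fin 8 → ZMod 2) →* DD where
  toFun v := EE v.toAdd
  map_one' := EE_zero
  map_mul' v w := EE_add _ _

theorem EE_surj (g : DD) : ∃ v, EE v = g := by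
  have h1 : DD ≤ EEh.range.map DD.subtype := by
    conv_lhs => unfold DD
    rw [closure_le]
    rintro _ ⟨i, rfl⟩
    exact ⟨ed i, ⟨Multiplicative.ofAdd (Pi.single i 1), EE_single i⟩, rfl⟩
  obtain ⟨x, ⟨v, hv⟩, hx⟩ := h1 g.2
  refine ⟨v.toAdd, ?_⟩
  have : x = g := Subtype.ext hx
  rw [← this, ← hv]
  rfl

/-- the action on `DD` -/
theorem EE_act {n : Fi24} {σ : Perm (Fin 8)} (h : Act n σ) (v : Fin 8 → ZMod 2) :
    n * (EE v : Fi24) * n⁻¹ = (EE (v ∘ (σ⁻¹ : Perm (Fin 8))) : Fi24) := by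
  -- the conjugation
  have key : ∀ s : Finset (Fin 8), n * ((∏ i ∈ s, ed i ^ (v i).val : DD) : Fi24) * n⁻¹ =
      ((∏ i ∈ s, ed (σ i) ^ (v i).val : DD) : Fi24) := by
    intro s
    induction s using Finset.induction_on with
    | empty => rw [Finset.prod_empty, Finset.prod_empty]; show n * 1 * n⁻¹ = 1; group
    | insert i s hi ih =>
      rw [Finset.prod_insert hi, Finset.prod_insert hi]
      show n * (dq i ^ (v i).val * ((∏ i ∈ s, ed i ^ (v i).val : DD) : Fi24)) * n⁻¹ =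
        dq (σ i) ^ (v i).val * ((∏ i ∈ s, ed (σ i) ^ (v i).val : DD) : Fi24)
      rw [← ih, ← h i, conj_pow]
      group
  unfold EE
  rw [key]
  congr 1
  refine Fintype.prod_equiv σ _ _ fun i => ?_
  show _ = ed (σ i) ^ (v (σ⁻¹ (σ i))).val
  have h2 : σ⁻¹ (σ i) = i := σ.symm_apply_apply i
  rw [h2]

theorem EE_act' {n : Fi24} {σ : Perm (Fin 8)} (h : Act n σ) {v : Fin 8 → ZMod 2} (hv : EE v = 1) :
    EE (v ∘ (σ⁻¹ : Perm (Fin 8))) = 1 := by
  apply Subtype.ext
  rw [← EE_act h v, hv]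
  show n * 1 * n⁻¹ = 1
  group

theorem zmod2 (x y : ZMod 2) : x ≠ y → x + y = 1 := by revert x y; decide
theorem zmod2' (x : ZMod 2) : x + x = 0 := by revert x; decide
theorem zmod2'' (x y : ZMod 2) : x + y = 0 → x = y := by revert x y; decide
theorem zmod2d (x y z : ZMod 2) : x ≠ y → z ≠ x → z = y := by revert x y z; decide

theorem exists_third (i j : Fin 8) : ∃ k, k ≠ i ∧ k ≠ j := by revert i j; decide

theorem ed_mul_ne {i j : Fin 8} (h : i ≠ j) : ed i * ed j ≠ 1 := by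
  intro h1
  have h2 : dq i * dq j = 1 := congrArg Subtype.val h1
  have h3 : dq i = dq j := by
    have h4 := dq_sq j
    exact mul_right_cancel (h2.trans h4.symm)
  exact h (dq_inj h3)

/-- **the kernel consists of constants** -/
theorem EE_ker {v : Fin 8 → ZMod 2} (h : EE v = 1) (i j : Fin 8) : v i = v j := by
  by_contra hij
  have hij' : i ≠ j := fun h => hij (by rw [h])
  obtain ⟨k, hki, hkj⟩ := exists_third i j
  set σ : Perm (Fin 8) := swap i j * swap j k with hσ
  have hs : Perm.sign σ = 1 := by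
    rw [hσ, map_mul, Perm.sign_swap hij', Perm.sign_swap (Ne.symm hkj)]
    decide
  obtain ⟨n, -, -, hn⟩ := exists_act hs
  have h1 := EE_act' hn h
  have h2 : EE (v ∘ (σ⁻¹ : Perm (Fin 8)) + v) = 1 := by rw [EE_add, h1, h, mul_one]
  have hinv : σ⁻¹ = swap j k * swap i j := by rw [hσ, mul_inv_rev, swap_inv, swap_inv]
  have vi : σ⁻¹ i = k := by
    rw [hinv]
    show swap j k (swap i j i) = k
    rw [swap_apply_left, swap_apply_left]
  have vj : σ⁻¹ j = i := by
    rw [hinv]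
    show swap j k (swap i j j) = i
    rw [swap_apply_right, swap_apply_of_ne_of_ne hij' (Ne.symm hki)]
  have vk : σ⁻¹ k = j := by
    rw [hinv]
    show swap j k (swap i j k) = j
    rw [swap_apply_of_ne_of_ne hki hkj, swap_apply_right]
  have vm : ∀ m, m ≠ i → m ≠ j → m ≠ k → σ⁻¹ m = m := by
    intro m h1 h2 h3
    rw [hinv]
    show swap j k (swap i j m) = m
    rw [swap_apply_of_ne_of_ne h1 h2, swap_apply_of_ne_of_ne h2 h3]
  have key : ∀ {a b : Fin 8}, a ≠ b → v ∘ (σ⁻¹ : Perm (Fin 8)) + v = Pi.single a 1 + Pi.single b 1 → False := by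
    intro a b hab h3
    rw [h3, EE_add, EE_single, EE_single] at h2
    exact ed_mul_ne hab h2
  by_cases hk : v k = v i
  · refine key (a := j) (b := k) (Ne.symm hkj) ?_
    funext m
    show v (σ⁻¹ m) + v m = (Pi.single j 1 : Fin 8 → ZMod 2) m + (Pi.single k 1 : Fin 8 → ZMod 2) m
    by_cases m1 : m = i
    · subst m1
      rw [vi, hk, zmod2', Pi.single_eq_of_ne hij', Pi.single_eq_of_ne (Ne.symm hki), add_zero]
    by_cases m2 : m = j
    · subst m2
      rw [vj, Pi.single_eq_same, Pi.single_eq_of_ne (Ne.symm hkj), add_zero]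
      exact zmod2 _ _ hij
    by_cases m3 : m = k
    · subst m3
      rw [vk, Pi.single_eq_same, Pi.single_eq_of_ne hkj, zero_add, hk]
      exact zmod2 _ _ (Ne.symm hij)
    rw [vm m m1 m2 m3, zmod2', Pi.single_eq_of_ne m2, Pi.single_eq_of_ne m3, add_zero]
  · have hk' : v k = v j := zmod2d _ _ _ hij hk
    refine key (a := i) (b := j) hij' ?_
    funext m
    show v (σ⁻¹ m) + v m = (Pi.single i 1 : Fin 8 → ZMod 2) m + (Pi.single j 1 : Fin 8 → ZMod 2) m
    by_cases m1 : m = i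
    · subst m1
      rw [vi, Pi.single_eq_same, Pi.single_eq_of_ne hij', add_zero]
      exact zmod2 _ _ hk
    by_cases m2 : m = j
    · subst m2
      rw [vj, Pi.single_eq_same, Pi.single_eq_of_ne (Ne.symm hij'), zero_add]
      exact zmod2 _ _ hij
    by_cases m3 : m = k
    · subst m3
      rw [vk, Pi.single_eq_of_ne hki, Pi.single_eq_of_ne hkj, add_zero, hk', zmod2']
    rw [vm m m1 m2 m3, zmod2', Pi.single_eq_of_ne m1, Pi.single_eq_of_ne m2, add_zero]

/-- **the product of the eight transpositions is trivial** -/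
theorem EE_const (a : ZMod 2) : EE (fun _ => a) = 1 := by
  have h1 : EE (fun _ => 1) = 1 := by
    apply Subtype.ext
    have h2 := eq_of_eqB eqall
    simp only [word_append, word_nil] at h2
    unfold EE
    rw [Fin.prod_univ_eight]
    show (dq 0 ^ (1 : ZMod 2).val * dq 1 ^ (1 : ZMod 2).val * dq 2 ^ (1 : ZMod 2).val * dq 3 ^ (1 : ZMod 2).val *
      dq 4 ^ (1 : ZMod 2).val * dq 5 ^ (1 : ZMod 2).val * dq 6 ^ (1 : ZMod 2).val * dq 7 ^ (1 : ZMod 2).val : Fi24) = 1
    have h3 : (1 : ZMod 2).val = 1 := rfl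
    rw [h3]
    simp only [pow_one, mul_assoc]
    exact h2
  have h2 : a = 0 ∨ a = 1 := by revert a; decide
  rcases h2 with rfl | rfl
  · exact EE_zero
  · exact h1

/-- parity -/
theorem EE_even {v : Fin 8 → ZMod 2} (h : (EE v : Fi24) ∈ commutator Fi24) : ∑ i, v i = 0 := by
  rw [Cfsg.Agent.R08.FiTwentyFour.mem_commutator_iff] at h
  have h1 : Cfsg.Agent.Fischer.Fi24Final.sgn (EE v : Fi24) = ∏ i, (-1 : ℤˣ) ^ (v i).val := by
    show (Cfsg.Agent.Fischer.Fi24Final.sgn.comp DD.subtype) (EE v) = _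
    unfold EE
    rw [map_prod]
    refine Finset.prod_congr rfl fun i _ => ?_
    rw [map_pow]
    congr 1
    exact Cfsg.Agent.R08.FiTwentyFour.sgn_L (dq_mem i)
  rw [h1, Finset.prod_pow_eq_pow_sum] at h
  have h2 : Even (∑ i, (v i).val) := by
    by_contra h3
    rw [Nat.not_even_iff_odd] at h3
    rw [h3.neg_one_pow] at h
    exact absurd h (by decide)
  have h3 : ∑ i, v i = ((∑ i, (v i).val : ℕ) : ZMod 2) := by
    rw [Nat.cast_sum]
    refine Finset.sum_congr rfl fun i _ => ?_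
    rw [ZMod.natCast_val, ZMod.cast_id]
  rw [h3, (ZMod.natCast_eq_zero_iff _ _)]
  exact h2.two_dvd

theorem card_ker_EEh : Nat.card EEh.ker ∣ 2 := by
  let f : EEh.ker →* Multiplicative (ZMod 2) := MonoidHom.mk' (fun z => Multiplicative.ofAdd (z.1.toAdd 0)) (fun _ _ => rfl)
  have hf : Function.Injective f := by
    intro a b hab
    apply Subtype.ext
    apply Multiplicative.toAdd.injective
    funext i
    have h1 : a.1.toAdd 0 = b.1.toAdd 0 := Multiplicative.ofAdd.injective hab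
    rw [EE_ker (show EE a.1.toAdd = 1 from a.2) i 0, EE_ker (show EE b.1.toAdd = 1 from b.2) i 0, h1]
  have h2 := Subgroup.card_dvd_of_injective f hf
  have h3 : Nat.card (Multiplicative (ZMod 2)) = 2 := by
    rw [Nat.card_congr Multiplicative.toAdd]
    exact Nat.card_zmod 2
  rwa [h3] at h2

theorem card_DD : 2 ^ 7 ∣ Nat.card DD := by
  have h1 : Nat.card EEh.range ∣ Nat.card DD := Subgroup.card_subgroup_dvd_card _
  refine dvd_trans ?_ h1
  have h2 : Nat.card EEh.ker * Nat.card EEh.range = 2 ^ 8 := by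
    have h3 := Subgroup.card_mul_index EEh.ker
    rw [Subgroup.index_ker] at h3
    rw [h3, Nat.card_congr Multiplicative.toAdd, Nat.card_pi]
    simp
  have h4 := card_ker_EEh
  rcases (Nat.dvd_prime Nat.prime_two).1 h4 with h5 | h5
  · rw [h5, one_mul] at h2
    rw [h2]
    norm_num
  · rw [h5] at h2
    have : Nat.card EEh.range = 2 ^ 7 := by omega
    rw [this]

end Cfsg.Agent.H834.R4
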