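import Cfsg.Agent.H834.R4.Seven
import Cfsg.Agent.H830.Con24
import Cfsg.Agent.H840.NormX

/-!
# `3.Fi24'`: the products of an element of class `3A` and of a commuting 2-element (helper834, for S2491, S2492)

* `mem_Clk_of_two` : a 2-element commuting with `l k` is in `C(l, k)`;
* `main_comm` : a 2-element of the stabilizer of the eight transpositions is `[x, y]` with `x` of order 7;
* `r4` : **`Good p (s * t)` for `s` of class `3A`, `t` a 2-element commuting with `s`**.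
-/

set_option autoImplicit false
set_option maxRecDepth 100000
set_option exponentiation.threshold 30000

namespace Cfsg.Agent.H834.R4

open Cfsg
open Cfsg.Agent.Fischer.Fi24RepDef hiding c0
open Cfsg.Agent.Fischer.Fi24Rep
open Cfsg.Agent.Fischer.Fi24Spider (word_append word_cons word_nil)
open Cfsg.Agent.H265.TF (wK s0 c0 Tri Good good_comm)
open Cfsg.Agent.H840.Lk
open Cfsg.Agent.H840.NormX
open Cfsg.Spor (Fi24)
open Cfsg.Spor.Fi24 (Gen)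
open Subgroup Equiv

theorem mem_Clk_of_two {t : Fi24} (h : Commute t (gen .l * gen .k)) {n : ℕ} (ht : t ^ 2 ^ n = 1) : t ∈ Clk := by
  haveI : Finite Fi24 := Cfsg.Agent.R08.FiTwentyFour.finite_Fi24
  have F := Cfsg.Agent.H830.Con24.fgroup
  have hl := Cfsg.Agent.H840.Lk.gen_mem .l
  have hk := Cfsg.Agent.H840.Lk.gen_mem .k
  obtain ⟨x, hx, y, hy, e⟩ := cent_mul F hl hk not_comm_lk h
  have hy2 := mem_cent_pair.1 hy
  have hinv : ∀ w ∈ zpowers (gen .l * gen .k), gen .l * w * (gen .l)⁻¹ = w⁻¹ := by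
    rintro w hw
    obtain ⟨j, rfl⟩ := mem_zpowers_iff.1 hw
    rw [← conj_zpow, left_inverts (fd F) hl hk, inv_zpow]
  have hxy : Commute x y := by
    obtain ⟨j, rfl⟩ := mem_zpowers_iff.1 hx
    exact (hy2.1.mul_left hy2.2).zpow_left j
  have h1 : x ^ 2 ^ n * y ^ 2 ^ n = 1 := by rw [← hxy.mul_pow, ← e, ht]
  have h2 : x ^ 2 ^ n = (y ^ 2 ^ n)⁻¹ := eq_inv_of_mul_eq_one_left h1
  have h3 : Commute (gen .l) (x ^ 2 ^ n) := by rw [h2]; exact (hy2.1.pow_right _).inv_right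
  have h4 := hinv _ (Subgroup.pow_mem _ hx (2 ^ n))
  rw [h3.eq, mul_inv_cancel_right] at h4
  have h5 : x ^ 2 ^ (n + 1) = 1 := by
    rw [pow_succ, pow_mul, pow_two]
    nth_rewrite 2 [h4]
    exact mul_inv_cancel _
  have h6 : x ^ 3 = 1 := by
    obtain ⟨j, rfl⟩ := mem_zpowers_iff.1 hx
    rw [← zpow_natCast, ← zpow_mul, mul_comm, zpow_mul, zpow_natCast, cube (fd F) hl hk not_comm_lk, one_zpow]
  have h7 : x = 1 := by
    have h8 : orderOf x ∣ Nat.gcd (2 ^ (n + 1)) 3 := Nat.dvd_gcd (orderOf_dvd_of_pow_eq_one h5) (orderOf_dvd_of_pow_eq_one h6)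
    have h9 : Nat.gcd (2 ^ (n + 1)) 3 = 1 := Nat.Coprime.pow_left _ (by norm_num)
    rw [h9, Nat.dvd_one] at h8
    exact orderOf_eq_one_iff.1 h8
  rw [e, h7, one_mul, mem_Clk]
  exact ⟨hy2.1.symm.eq, hy2.2.symm.eq⟩

/-- **a 2-element of the stabilizer** -/
theorem main_comm {n : Fi24} (hn : n ∈ NN) (hnc : n ∈ commutator Fi24) {m : ℕ} (h2 : n ^ 2 ^ m = 1) :
    ∃ x y : Fi24, x ∈ Clk ∧ x ∈ commutator Fi24 ∧ x ^ 7 = 1 ∧ y ∈ Clk ∧ y ∉ commutator Fi24 ∧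
      n = x * y * x⁻¹ * y⁻¹ := by
  obtain ⟨hnC, a, ha⟩ := hn
  have ha2 : a ^ 2 ^ m = 1 := Act.uniq (ha.pow _) (by rw [h2]; exact Act.one)
  obtain ⟨τ, b, hb, hab⟩ := wt_all (even_of_act hnC ha) ha2
  set X : Perm (Fin 8) := τ * c7 * τ⁻¹ with hX
  have hXs : Perm.sign X = 1 := by
    rw [hX, map_mul, map_mul, c7_even, mul_one, map_inv, mul_inv_cancel]
  have hX7 : X ^ 7 = 1 := by
    rw [hX, conj_pow, c7_pow, mul_one, mul_inv_cancel]
  obtain ⟨x1, x1C, x1c, x1a⟩ := exists_act hXs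
  obtain ⟨b1, b1C, b1c, b1a⟩ := exists_act hb
  have hx : Act (x1 ^ 8) X := by
    have h3 := x1a.pow 8
    rwa [show X ^ 8 = X by rw [pow_succ, hX7, one_mul]] at h3
  have hD : x1 ^ 7 ∈ DD := mem_DD_of_act (Clk.pow_mem x1C 7) (by
    have h3 := x1a.pow 7
    rwa [hX7] at h3)
  have h14 : x1 ^ 14 = 1 := by
    have h3 := DD_sq hD
    rwa [← pow_add] at h3
  set x : Fi24 := x1 ^ 8 with hxd
  have hx7 : x ^ 7 = 1 := by
    rw [hxd, ← pow_mul, show 8 * 7 = 14 * 4 by norm_num, pow_mul, h14, one_pow]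
  have hxC : x ∈ Clk := Clk.pow_mem x1C 8
  have hxc : x ∈ commutator Fi24 := pow_mem x1c 8
  set y0 : Fi24 := b1 * dq 7 with hy0
  have hy0a : Act y0 b := by
    have h3 := b1a.mul (act_DD (dq_DD 7))
    rwa [mul_one] at h3
  have hy0C : y0 ∈ Clk := Clk.mul_mem b1C (dq_Clk 7)
  have hnor : (commutator Fi24).Normal := inferInstance
  have hcc : x * y0 * x⁻¹ * y0⁻¹ ∈ commutator Fi24 := by
    have h3 := (commutator Fi24).mul_mem hxc (hnor.conj_mem _ ((commutator Fi24).inv_mem hxc) y0)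
    rwa [show x * (y0 * x⁻¹ * y0⁻¹) = x * y0 * x⁻¹ * y0⁻¹ by group] at h3
  have hccC : x * y0 * x⁻¹ * y0⁻¹ ∈ Clk :=
    Clk.mul_mem (Clk.mul_mem (Clk.mul_mem hxC hy0C) (Clk.inv_mem hxC)) (Clk.inv_mem hy0C)
  set v1 : Fi24 := (x * y0 * x⁻¹ * y0⁻¹)⁻¹ * n with hv1
  have hv1V : v1 ∈ VV := by
    refine ⟨mem_DD_of_act (Clk.mul_mem (Clk.inv_mem hccC) hnC) ?_, (commutator Fi24).mul_mem ((commutator Fi24).inv_mem hcc) hnc⟩
    have h3 := (hx.comm hy0a).inv.mul ha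
    rwa [← hab, inv_mul_cancel] at h3
  have hv2 : y0⁻¹ * v1 * y0⁻¹⁻¹ ∈ VV := VV_conj hy0a.inv hv1V
  obtain ⟨w, hw, e⟩ := exists_comm hx hv2
  refine ⟨x, y0 * w, hxC, hxc, hx7, Clk.mul_mem hy0C (DD_le hw.1), ?_, ?_⟩
  · intro h3
    rw [hy0, mul_assoc, Subgroup.mul_mem_iff_of_index_two comm_index] at h3
    have h4 : dq 7 ∈ commutator Fi24 := ((Subgroup.mul_mem_iff_of_index_two comm_index).1 (h3.1 b1c)).2 hw.2
    exact Cfsg.Agent.R08.FiTwentyFour.odd (dq_mem 7) h4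
  · calc n = (x * y0 * x⁻¹ * y0⁻¹) * v1 := by rw [hv1]; group
      _ = x * y0 * x⁻¹ * (y0⁻¹ * v1 * y0⁻¹⁻¹) * y0⁻¹ := by group
      _ = x * y0 * x⁻¹ * (x * w * x⁻¹ * w⁻¹) * y0⁻¹ := by rw [e]
      _ = x * (y0 * w) * x⁻¹ * (y0 * w)⁻¹ := by group

universe u
variable {H : Type u} [Group H] {p : H →* Spor.Fi24'}

/-- **`s` of class `3A` times a commuting 2-element** -/
theorem r4 (hs : Function.Surjective p) (hc : p.ker ≤ center H) (hk : Nat.card p.ker = 3) (h : Tri p c0 s0)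
    {s t : Spor.Fi24'} (hconj : ∃ g : Spor.Fi24', g * s * g⁻¹ = s0) {n : ℕ} (ht : t ^ 2 ^ n = 1) (hst : Commute s t) :
    Good p (s * t) := by
  obtain ⟨g0, hg0⟩ := hconj
  refine Good.of_conj hs g0 ?_
  rw [show g0 * (s * t) * g0⁻¹ = (g0 * s * g0⁻¹) * (g0 * t * g0⁻¹) by group, hg0]
  have ht1 : (g0 * t * g0⁻¹) ^ 2 ^ n = 1 := by rw [conj_pow, ht]; group
  have hst1 : Commute s0 (g0 * t * g0⁻¹) := by
    rw [← hg0]
    exact (SemiconjBy.conj_iff (a := s) (x := t) (y := t) (b := g0)).2 hst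
  generalize g0 * t * g0⁻¹ = t1 at ht1 hst1 ⊢
  have es : (s0 : Fi24) = gen .l * gen .k := by
    show word [.l, .k] = _
    rw [word_cons, word_cons, word_nil, mul_one]
  have ht2 : (t1 : Fi24) ^ 2 ^ n = 1 := congrArg Subtype.val ht1
  have hst2 : Commute (t1 : Fi24) (gen .l * gen .k) := by
    rw [← es]
    exact congrArg Subtype.val hst1.symm.eq
  obtain ⟨g, hgC, hgc, hgN⟩ := conj_N (mem_Clk_of_two hst2 ht2) ht2
  have hlk : ∀ w ∈ Clk, Commute w (gen .l * gen .k) := fun w hw => by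
    have h3 := mem_Clk.1 hw
    exact (show Commute w (gen .l) from h3.1).mul_right h3.2
  refine Good.of_conj hs ⟨g, hgc⟩ ?_
  have ht3 : (g * (t1 : Fi24) * g⁻¹) ^ 2 ^ n = 1 := by rw [conj_pow, ht2]; group
  have hnc : g * (t1 : Fi24) * g⁻¹ ∈ commutator Fi24 := mul_mem (mul_mem hgc t1.2) (inv_mem hgc)
  obtain ⟨x, y, hxC, hxc, hx7, hyC, hyc, e⟩ := main_comm hgN hnc ht3
  obtain ⟨c, hcT, hcx⟩ := exists_c hs h hxC hx7
  have hcX : Commute c (⟨x, hxc⟩ : Spor.Fi24') := Subtype.ext hcx.eq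
  have T := hcT.inv_right.mul_right hs hc hk hcX (n := 7) (Subtype.ext hx7) (by norm_num)
  have hY : y * gen .l ∈ commutator Fi24 := by
    rw [Subgroup.mul_mem_iff_of_index_two comm_index]
    exact iff_of_false hyc (Cfsg.Agent.R08.FiTwentyFour.odd (Cfsg.Agent.H840.Lk.gen_mem .l))
  have G := good_comm hs hc hk T (⟨y * gen .l, hY⟩ : Spor.Fi24')
  haveI : Finite Fi24 := Cfsg.Agent.R08.FiTwentyFour.finite_Fi24
  have F := Cfsg.Agent.H830.Con24.fgroup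
  have hl := Cfsg.Agent.H840.Lk.gen_mem .l
  have hkk := Cfsg.Agent.H840.Lk.gen_mem .k
  have h3 : (gen .l * gen .k) ^ 3 = 1 := cube (fd F) hl hkk not_comm_lk
  have hli := left_inverts (fd F) hl hkk
  have key : (⟨g, hgc⟩ : Spor.Fi24') * (s0 * t1) * (⟨g, hgc⟩ : Spor.Fi24')⁻¹ =
      (s0⁻¹ * (⟨x, hxc⟩ : Spor.Fi24')) * (⟨y * gen .l, hY⟩ : Spor.Fi24') * (s0⁻¹ * (⟨x, hxc⟩ : Spor.Fi24'))⁻¹ *
        (⟨y * gen .l, hY⟩ : Spor.Fi24')⁻¹ := by
    apply Subtype.ext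
    show g * ((s0 : Fi24) * t1) * g⁻¹ = ((s0 : Fi24)⁻¹ * x) * (y * gen .l) * ((s0 : Fi24)⁻¹ * x)⁻¹ * (y * gen .l)⁻¹
    rw [es]
    have cx := hlk x hxC
    have cy := hlk y hyC
    have cg := hlk g hgC
    have clx : Commute x (gen .l) := (mem_Clk.1 hxC).1
    generalize gen .l * gen .k = σ at *
    generalize gen .l = l at *
    have e1 : g * (σ * t1) * g⁻¹ = σ * (g * t1 * g⁻¹) := by
      calc g * (σ * t1) * g⁻¹ = (g * σ) * t1 * g⁻¹ := by group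
        _ = (σ * g) * t1 * g⁻¹ := by rw [cg.eq]
        _ = _ := by group
    have e2 : σ⁻¹ * σ⁻¹ = σ := by
      have : σ * σ * σ = 1 := by rw [← h3]; simp only [pow_succ, pow_zero, one_mul]
      calc σ⁻¹ * σ⁻¹ = σ⁻¹ * σ⁻¹ * (σ * σ * σ) := by rw [this, mul_one]
        _ = σ := by group
    rw [e1, e]
    symm
    calc σ⁻¹ * x * (y * l) * (σ⁻¹ * x)⁻¹ * (y * l)⁻¹
        = (σ⁻¹ * (x * y)) * (l * (x⁻¹) * l⁻¹) * (l * σ * l⁻¹) * y⁻¹ := by group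
      _ = ((x * y) * σ⁻¹) * x⁻¹ * σ⁻¹ * y⁻¹ := by
          rw [((cx.mul_left cy).inv_right).symm.eq, hli, clx.inv_left.symm.eq, mul_inv_cancel_right]
      _ = x * y * (σ⁻¹ * x⁻¹) * σ⁻¹ * y⁻¹ := by group
      _ = x * y * (x⁻¹ * σ⁻¹) * σ⁻¹ * y⁻¹ := by rw [cx.inv_inv.eq]
      _ = x * y * x⁻¹ * (σ⁻¹ * σ⁻¹) * y⁻¹ := by group
      _ = (x * y * x⁻¹) * σ * y⁻¹ := by rw [e2]
      _ = (x * y * x⁻¹) * (y⁻¹ * σ) := by rw [cy.inv_left.eq]; group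
      _ = (x * y * x⁻¹ * y⁻¹) * σ := by group
      _ = σ * (x * y * x⁻¹ * y⁻¹) := (((cx.mul_left cy).mul_left cx.inv_left).mul_left cy.inv_left).eq
  rw [key]
  exact G

end Cfsg.Agent.H834.R4
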