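import Cfsg.Agent.H834.R4.Act

/-!
# `Fi24`: the stabilizer of the eight transpositions contains a Sylow 2-subgroup of `C(l, k)` (helper834)

* `conj_into` : Sylow conjugacy in `C(l, k)`;
* `conj_N` : every 2-element of `C(l, k)` is conjugate into the stabilizer, by an element of `Fi24'`;
* `even_of_act` : the stabilizer induces even permutations;
* `exists_comm` : an element of `V` is a commutator of an element of order 7 with an element of `V`.
-/

set_option autoImplicit false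
set_option maxRecDepth 100000
set_option exponentiation.threshold 30000

namespace Cfsg.Agent.H834.R4

open Cfsg
open Cfsg.Agent.Fischer.Fi24RepDef Cfsg.Agent.Fischer.Fi24Rep
open Cfsg.Agent.R08.FiTwentyFour (L)
open Cfsg.Agent.H840.Lk
open Cfsg.Spor (Fi24)
open Subgroup Equiv

/-- the stabilizer of the eight transpositions -/
def NN : Subgroup Fi24 where
  carrier := {n | n ∈ Clk ∧ ∃ σ, Act n σ}
  mul_mem' := by
    rintro n m ⟨h1, σ, h2⟩ ⟨h3, τ, h4⟩
    exact ⟨Clk.mul_mem h1 h3, σ * τ, h2.mul h4⟩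
  one_mem' := ⟨Clk.one_mem, 1, Act.one⟩
  inv_mem' := by
    rintro n ⟨h1, σ, h2⟩
    exact ⟨Clk.inv_mem h1, σ⁻¹, h2.inv⟩

theorem NN_le : NN ≤ Clk := fun _ h => h.1

theorem finite_Clk : Finite Clk := Nat.finite_of_card_ne_zero (by rw [card_Clk]; norm_num)

theorem finite_NN : Finite NN := by
  haveI := finite_Clk
  exact Finite.of_injective (Subgroup.inclusion NN_le) (Subgroup.inclusion_injective NN_le)

/-- the action -/
noncomputable def φN : NN →* Perm (Fin 8) := MonoidHom.mk' (fun n => n.2.2.choose) (fun a b =>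
  Act.uniq (a * b).2.2.choose_spec (a.2.2.choose_spec.mul b.2.2.choose_spec))

theorem φN_eq {n : NN} {σ : Perm (Fin 8)} (h : Act n.1 σ) : φN n = σ := Act.uniq n.2.2.choose_spec h

theorem act_φN (n : NN) : Act n.1 (φN n) := n.2.2.choose_spec

theorem DD_le_NN : DD ≤ NN := fun _ h => ⟨DD_le h, 1, act_DD h⟩

theorem card_NN : Nat.card φN.ker * Nat.card φN.range = Nat.card NN := by
  rw [← Subgroup.index_ker, Subgroup.card_mul_index]

theorem card_kerN : 2 ^ 7 ∣ Nat.card φN.ker := by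
  refine card_DD.trans ?_
  have h1 : ∀ d : DD, (⟨d.1, DD_le_NN d.2⟩ : NN) ∈ φN.ker := fun d => φN_eq (act_DD d.2)
  let f : DD →* φN.ker := MonoidHom.mk' (fun d => ⟨⟨d.1, DD_le_NN d.2⟩, h1 d⟩) (fun _ _ => rfl)
  refine Subgroup.card_dvd_of_injective f ?_
  intro a b hab
  exact Subtype.ext (congrArg (fun z : φN.ker => (z.1.1 : Fi24)) hab)

theorem alt_le_range : alternatingGroup (Fin 8) ≤ φN.range := by
  intro σ hσ
  obtain ⟨n, h1, -, h3⟩ := exists_act (Perm.mem_alternatingGroup.1 hσ)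
  exact ⟨⟨n, h1, σ, h3⟩, φN_eq h3⟩

theorem card_alt : Nat.card (alternatingGroup (Fin 8)) = 2 ^ 6 * 315 := by
  have h1 := two_mul_nat_card_alternatingGroup (α := Fin 8)
  rw [Nat.card_perm, Nat.card_eq_fintype_card (α := Fin 8), Fintype.card_fin] at h1
  have h2 : Nat.factorial 8 = 40320 := by decide
  omega

theorem card_rangeN : 2 ^ 6 ∣ Nat.card φN.range := by
  have h1 := Subgroup.card_dvd_of_le alt_le_range
  rw [card_alt] at h1
  exact (Nat.dvd_mul_right _ _).trans h1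

theorem card_NN_dvd : 2 ^ 13 ∣ Nat.card NN := by
  have e : 2 ^ 13 = 2 ^ 7 * 2 ^ 6 := by norm_num
  rw [← card_NN, e]
  exact mul_dvd_mul card_kerN card_rangeN

theorem not_dvd14 : ¬ 2 ^ 14 ∣ Nat.card Clk := by
  rw [card_Clk]; norm_num

theorem fac_two : (Nat.card Clk).factorization 2 = 13 := by
  apply le_antisymm
  · by_contra h
    exact not_dvd14 (((Nat.prime_two).pow_dvd_iff_le_factorization (by rw [card_Clk]; norm_num)).2 (by omega))
  · refine ((Nat.prime_two).pow_dvd_iff_le_factorization (by rw [card_Clk]; norm_num)).1 ?_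
    rw [card_Clk]; norm_num

theorem fac_seven : (Nat.card Clk).factorization 7 = 1 := by
  have h7 : Nat.Prime 7 := by norm_num
  apply le_antisymm
  · by_contra h
    have : 7 ^ 2 ∣ Nat.card Clk := (h7.pow_dvd_iff_le_factorization (by rw [card_Clk]; norm_num)).2 (by omega)
    rw [card_Clk] at this
    revert this
    norm_num
  · refine (h7.pow_dvd_iff_le_factorization (by rw [card_Clk]; norm_num)).1 ?_
    rw [card_Clk]; norm_num

/-- **The stabilizer induces even permutations.** -/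
theorem even_of_act {n : Fi24} (hn : n ∈ Clk) {σ : Perm (Fin 8)} (h : Act n σ) : Perm.sign σ = 1 := by
  by_contra hs
  have h1 : φN.range = ⊤ := by
    rw [eq_top_iff]
    intro τ _
    have hσ : σ ∈ φN.range := ⟨⟨n, hn, σ, h⟩, φN_eq h⟩
    by_cases ht : Perm.sign τ = 1
    · exact alt_le_range (Perm.mem_alternatingGroup.2 ht)
    · have h2 : Perm.sign (τ * σ⁻¹) = 1 := by
        rw [map_mul, map_inv]
        rcases Int.units_eq_one_or (Perm.sign τ) with h3 | h3
        · exact absurd h3 ht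
        rcases Int.units_eq_one_or (Perm.sign σ) with h4 | h4
        · exact absurd h4 hs
        rw [h3, h4]; decide
      have h3 := alt_le_range (Perm.mem_alternatingGroup.2 h2)
      have h4 := φN.range.mul_mem h3 hσ
      rwa [inv_mul_cancel_right] at h4
  have h2 : 2 ^ 7 ∣ Nat.card φN.range := by
    rw [h1, Subgroup.card_top, Nat.card_perm, Nat.card_eq_fintype_card (α := Fin 8), Fintype.card_fin]
    decide
  have h3 : 2 ^ 14 ∣ Nat.card NN := by
    have e : 2 ^ 14 = 2 ^ 7 * 2 ^ 7 := by norm_num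
    rw [← card_NN, e]
    exact mul_dvd_mul card_kerN h2
  exact not_dvd14 (h3.trans (Subgroup.card_dvd_of_le NN_le))

/-- Sylow conjugacy -/
theorem conj_sylow {G : Type*} [Group G] [Finite G] {p : ℕ} [Fact p.Prime] {H : Subgroup G}
    (hH : Nat.card H = p ^ (Nat.card G).factorization p) {x : G} {n : ℕ} (hx : x ^ p ^ n = 1) :
    ∃ g : G, g * x * g⁻¹ ∈ H := by
  have h1 : IsPGroup p (zpowers x) := IsPGroup.of_card (n := (Nat.card (zpowers x)).factorization p) (by
    rw [Nat.card_zpowers]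
    obtain ⟨k, -, hk⟩ := (Nat.dvd_prime_pow (Fact.out : p.Prime)).1 (orderOf_dvd_of_pow_eq_one hx)
    rw [hk, (Fact.out : p.Prime).factorization_pow, Finsupp.single_eq_same])
  obtain ⟨P, hP⟩ := h1.exists_le_sylow
  obtain ⟨g, hg⟩ := MulAction.exists_smul_eq G P (Sylow.ofCard H hH)
  refine ⟨g, ?_⟩
  have h2 : (g • P : Sylow p G).toSubgroup = H := by rw [hg]; rfl
  rw [← h2, Sylow.coe_subgroup_smul, Subgroup.mem_pointwise_smul_iff_inv_smul_mem]
  have h3 : (MulAut.conj g)⁻¹ • (g * x * g⁻¹) = x := by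
    rw [← map_inv, MulAut.smul_def, MulAut.conj_apply]
    group
  rw [h3]
  exact hP (mem_zpowers x)

theorem conj_into {p : ℕ} [Fact p.Prime] {H : Subgroup Fi24} (hH : H ≤ Clk)
    (hc : Nat.card H = p ^ (Nat.card Clk).factorization p) {x : Fi24} (hx : x ∈ Clk) {n : ℕ} (hx1 : x ^ p ^ n = 1) :
    ∃ g ∈ Clk, g * x * g⁻¹ ∈ H := by
  haveI := finite_Clk
  have h1 : Nat.card (H.subgroupOf Clk) = p ^ (Nat.card Clk).factorization p := by
    rw [← hc, Nat.card_congr (Subgroup.subgroupOfEquivOfLe hH).toEquiv]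
  obtain ⟨g, hg⟩ := conj_sylow h1 (x := (⟨x, hx⟩ : Clk)) (n := n) (Subtype.ext hx1)
  exact ⟨g.1, g.2, hg⟩

theorem b_NN : dq 0 ∈ NN := DD_le_NN (dq_DD 0)

theorem odd_b : dq 0 ∉ commutator Fi24 := Cfsg.Agent.R08.FiTwentyFour.odd (dq_mem 0)

/-- **a 2-element of `C(l, k)` is conjugate into the stabilizer** -/
theorem conj_N {t : Fi24} (ht : t ∈ Clk) {n : ℕ} (h2 : t ^ 2 ^ n = 1) :
    ∃ h ∈ Clk, h ∈ commutator Fi24 ∧ h * t * h⁻¹ ∈ NN := by
  haveI := finite_NN
  obtain ⟨K, hK⟩ := Sylow.exists_subgroup_card_pow_prime 2 card_NN_dvd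
  have hK1 : Nat.card (K.map NN.subtype) = 2 ^ (Nat.card Clk).factorization 2 := by
    rw [fac_two, ← hK]
    exact Nat.card_congr (K.equivMapOfInjective _ NN.subtype_injective).symm.toEquiv
  have hK2 : K.map NN.subtype ≤ NN := by
    rintro _ ⟨x, -, rfl⟩
    exact x.2
  obtain ⟨g, hg, h3⟩ := conj_into (hK2.trans NN_le) hK1 ht h2
  have h4 := hK2 h3
  by_cases hgc : g ∈ commutator Fi24
  · exact ⟨g, hg, hgc, h4⟩
  · refine ⟨dq 0 * g, Clk.mul_mem (dq_Clk 0) hg, ?_, ?_⟩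
    · rw [Subgroup.mul_mem_iff_of_index_two comm_index]
      exact iff_of_false odd_b hgc
    · have e : dq 0 * g * t * (dq 0 * g)⁻¹ = dq 0 * (g * t * g⁻¹) * (dq 0)⁻¹ := by group
      rw [e]
      exact NN.mul_mem (NN.mul_mem b_NN h4) (NN.inv_mem b_NN)

/-! ### The action of an element of order 7 on `V` -/

/-- the even part of `DD` -/
def VV : Subgroup Fi24 := DD ⊓ commutator Fi24

theorem VV_conj {n v : Fi24} {σ : Perm (Fin 8)} (hn : Act n σ) (hv : v ∈ VV) : n * v * n⁻¹ ∈ VV := by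
  refine ⟨?_, ?_⟩
  · obtain ⟨w, hw⟩ := EE_surj ⟨v, hv.1⟩
    have h1 : (EE w : Fi24) = v := congrArg Subtype.val hw
    rw [← h1, EE_act hn]
    exact (EE _).2
  · have : (commutator Fi24).Normal := inferInstance
    exact this.conj_mem _ hv.2 _

/-- **an element inducing a 7-cycle has no fixed point on `VV`** -/
theorem fix_VV {x v : Fi24} {τ : Perm (Fin 8)} (hx : Act x (τ * c7 * τ⁻¹)) (hv : v ∈ VV) (h : x * v * x⁻¹ = v) :
    v = 1 := by
  obtain ⟨w, hw⟩ := EE_surj ⟨v, hv.1⟩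
  have hwv : (EE w : Fi24) = v := congrArg Subtype.val hw
  set σ := τ * c7 * τ⁻¹ with hσ
  have h1 : EE (w ∘ (σ⁻¹ : Perm (Fin 8))) = EE w := by
    apply Subtype.ext
    rw [← EE_act hx, hwv, h]
  have h2 : EE (w ∘ (σ⁻¹ : Perm (Fin 8)) + w) = 1 := by
    rw [EE_add, h1, ← EE_add]
    have : w + w = 0 := by
      funext i
      exact zmod2' _
    rw [this, EE_zero]
  have h3 := EE_ker h2
  -- the fixed index
  have hfix : σ⁻¹ (τ 7) = τ 7 := by
    have h4 : σ (τ 7) = τ 7 := by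
      show τ (c7 (τ⁻¹ (τ 7))) = τ 7
      have h5 : τ⁻¹ (τ 7) = 7 := τ.symm_apply_apply 7
      rw [h5]
      rfl
    rw [Perm.inv_eq_iff_eq, h4]
  have h4 : ∀ i, w (σ⁻¹ i) = w i := by
    intro i
    have h5 := h3 i (τ 7)
    have h6 : (w ∘ (σ⁻¹ : Perm (Fin 8)) + w) (τ 7) = 0 := by
      show w (σ⁻¹ (τ 7)) + w (τ 7) = 0
      rw [hfix, zmod2']
    rw [h6] at h5
    exact zmod2'' _ _ h5
  have h5 : ∀ i, (w (τ (c7 i)) = 1 ↔ w (τ i) = 1) := by
    intro i
    have h6 := h4 (σ (τ i))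
    have h7 : σ⁻¹ (σ (τ i)) = τ i := σ.symm_apply_apply _
    have h8 : σ (τ i) = τ (c7 i) := by
      show τ (c7 (τ⁻¹ (τ i))) = _
      have : τ⁻¹ (τ i) = i := τ.symm_apply_apply i
      rw [this]
    rw [h7, h8] at h6
    rw [h6]
  have h6 := c7_inv (ε := fun i => w (τ i) = 1) h5
  have z01 : ∀ a : ZMod 2, a = 0 ∨ a = 1 := by decide
  have h7 : ∀ i : Fin 8, i ≠ 7 → w (τ i) = w (τ 0) := by
    intro i hi
    have h8 := h6 i 0 hi (by decide)
    rcases z01 (w (τ i)) with a1 | a1 <;> rcases z01 (w (τ 0)) with a2 | a2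
    · rw [a1, a2]
    · exact absurd (h8.2 a2) (by rw [a1]; decide)
    · exact absurd (h8.1 a1) (by rw [a2]; decide)
    · rw [a1, a2]
  have h8 : ∑ i, w i = 0 := EE_even (by rw [hwv]; exact hv.2)
  have h9 : ∑ i, w i = ∑ i, w (τ i) := (Equiv.sum_comp τ w).symm
  rw [h9, Fin.sum_univ_eight, h7 1 (by decide), h7 2 (by decide), h7 3 (by decide), h7 4 (by decide),
    h7 5 (by decide), h7 6 (by decide)] at h8
  have h10 : w (τ 7) = w (τ 0) := by
    revert h8
    generalize w (τ 0) = a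
    generalize w (τ 7) = b
    revert a b
    decide
  have h11 : w = fun _ => w (τ 0) := by
    funext i
    obtain ⟨j, rfl⟩ := τ.surjective i
    by_cases hj : j = 7
    · rw [hj, h10]
    · exact h7 j hj
  rw [← hwv, h11, EE_const]
  rfl

/-- **commutators** -/
theorem exists_comm {x v : Fi24} {τ : Perm (Fin 8)} (hx : Act x (τ * c7 * τ⁻¹)) (hv : v ∈ VV) :
    ∃ w ∈ VV, x * w * x⁻¹ * w⁻¹ = v := by
  haveI : Finite VV := by
    haveI := finite_Clk
    exact Finite.of_injective (Subgroup.inclusion ((inf_le_left : VV ≤ DD).trans DD_le)) (Subgroup.inclusion_injective _)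
  let f : VV → VV := fun w => ⟨x * w * x⁻¹ * (w : Fi24)⁻¹, VV.mul_mem (VV_conj hx w.2) (VV.inv_mem w.2)⟩
  have hf : Function.Injective f := by
    intro a b hab
    have h1 : x * a * x⁻¹ * (a : Fi24)⁻¹ = x * b * x⁻¹ * (b : Fi24)⁻¹ := congrArg Subtype.val hab
    have h2 : x * ((b : Fi24)⁻¹ * a) * x⁻¹ = (b : Fi24)⁻¹ * a := by
      have c1 : Commute (x * (a : Fi24) * x⁻¹) (a : Fi24)⁻¹ := DD_comm (VV_conj hx a.2).1 (DD.inv_mem a.2.1)
      calc x * ((b : Fi24)⁻¹ * a) * x⁻¹ = (x * b * x⁻¹)⁻¹ * (x * a * x⁻¹ * (a : Fi24)⁻¹) * a := by group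
        _ = (x * b * x⁻¹)⁻¹ * (x * b * x⁻¹ * (b : Fi24)⁻¹) * a := by rw [h1]
        _ = _ := by group
    have h3 := fix_VV hx (VV.mul_mem (VV.inv_mem b.2) a.2) h2
    apply Subtype.ext
    have h4 : (a : Fi24) = b * ((b : Fi24)⁻¹ * a) := by group
    rw [h4, h3, mul_one]
  obtain ⟨w, hw⟩ := Finite.surjective_of_injective hf ⟨v, hv⟩
  exact ⟨w, w.2, congrArg Subtype.val hw⟩

end Cfsg.Agent.H834.R4
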