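import Cfsg.Agent.H834.R4.Chk
import Cfsg.Agent.H840.Width

/-!
# `Fi24`: eight commuting transpositions `dq i` commuting with `l` and `k` (helper834, for `3.Fi24'`)

* `mem_D` : an element of `C(l, k)` commuting with the eight transpositions is a product of them.
-/

set_option autoImplicit false
set_option maxRecDepth 100000
set_option exponentiation.threshold 30000

namespace Cfsg.Agent.H834.R4

open Cfsg Cfsg.Agent.Lib.PermNet Cfsg.Agent.Lib.PermNetPt
open Cfsg.Agent.Fischer.Fi24RepDef Cfsg.Agent.Fischer.Fi24Rep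
open Cfsg.Agent.Fischer.Fi24RepOrb (UG)
open Cfsg.Agent.Fischer.Fi24Spider (word_append word_cons word_nil s8 node8)
open Cfsg.Agent.Fischer.Y322
open Cfsg.Agent.KFacts.FiTF.Pts Cfsg.Agent.KFacts.FiTF.FixMask
open Cfsg.Agent.KFacts.FiTF.Defs (tr)
open Cfsg.Agent.R08.FiTwentyFour (L)
open Cfsg.Agent.LThreeFi24.FiveConj (eqB eq_of_eqB)
open Cfsg.Agent.H840.LkK (M uz AL pt_z)
open Cfsg.Agent.H840.Wd (word_single)
open Cfsg.Agent.H840.Lk
open Cfsg.Spor (Fi24)
open Cfsg.Spor.Fi24 (Gen)
open Subgroup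

theorem chk_iff {w : List Gen} {p q : ℕ} : chkPt (nw w false) p q = true ↔ rho (word w) p = q := by
  constructor
  · exact rho_of_chkPt
  · intro h
    unfold chkPt
    rw [winv_eq (wok w false), ← rho_word]
    have h2 : (rho (word w))⁻¹ q = p := by rw [Equiv.Perm.inv_eq_iff_eq, h]
    rw [h2]
    exact Nat.beq_refl p

theorem chk_gen {x : Gen} {p q : ℕ} : chkPt (nw [x] false) p q = true ↔ rho (gen x) p = q := by
  rw [chk_iff, word_single]

theorem chk_not {x : Gen} {p : ℕ} (h : (!(chkPt (nw [x] false) p p)) = true) : rho (gen x) p ≠ p := by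
  intro h1
  rw [chk_gen.2 h1] at h
  exact absurd h (by decide)

/-! ### The eight transpositions -/

/-- the eight transpositions -/
noncomputable def dq (i : Fin 8) : Fi24 := word (W8 i)

theorem isPt_dq (i : Fin 8) : IsPt (dq i) (P8 i) := by
  fin_cases i
  · show IsPt (word [.b]) 193
    rw [word_single]; exact isPt_gen .b
  · exact isPt_tr (u := uz) (x := .b) pt_z
  · show IsPt (word [.g]) 8
    rw [word_single]; exact isPt_gen .g
  · show IsPt (word [.e]) 3
    rw [word_single]; exact isPt_gen .e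
  · show IsPt (word [.h]) 4
    rw [word_single]; exact isPt_gen .h
  · exact isPt_tr (u := u5) (x := .b) pt5
  · exact isPt_tr (u := u6) (x := .b) pt6
  · exact isPt_tr (u := u7) (x := .b) pt7

theorem dq_one : dq 1 = zc := (isPt_dq 1).inj isPt_zc
theorem dq_zero : dq 0 = gen .b := word_single .b
theorem dq_two : dq 2 = gen .g := word_single .g
theorem dq_three : dq 3 = gen .e := word_single .e
theorem dq_four : dq 4 = gen .h := word_single .h

theorem P8_inj : ∀ i j : Fin 8, P8 i = P8 j → i = j := by decide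

theorem dq_inj : Function.Injective dq := fun i j h => P8_inj i j (by
  have h1 := isPt_dq i
  rw [h] at h1
  exact h1.uniq (isPt_dq j))

theorem dq_mem (i : Fin 8) : dq i ∈ L := (isPt_dq i).mem

theorem dq_sq (i : Fin 8) : dq i * dq i = 1 := Cfsg.Agent.R08.FiTwentyFour.sq (dq_mem i)

theorem dq_comm (i j : Fin 8) : Commute (dq i) (dq j) := by
  have key : ∀ {i j : Fin 8}, i < j → Commute (dq i) (dq j) := by
    intro i j h
    have h1 := cm
    rw [List.all_eq_true] at h1
    have h2 := h1 i (List.mem_finRange i)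
    rw [List.all_eq_true] at h2
    have h3 := h2 j (List.mem_finRange j)
    rw [decide_eq_true h] at h3
    exact ((isPt_dq j).comm_iff _).2 (chk_iff.1 (by simpa using h3))
  rcases lt_trichotomy i j with h | h | h
  · exact key h
  · subst h; exact Commute.refl _
  · exact (key h).symm

theorem dq_Clk (i : Fin 8) : dq i ∈ Clk := by
  have h1 := cl
  rw [List.all_eq_true] at h1
  have h2 := h1 i (List.mem_finRange i)
  rw [Bool.and_eq_true, chk_gen, chk_gen] at h2
  rw [mem_Clk]
  exact ⟨(((isPt_dq i).comm_iff _).2 h2.1).symm, (((isPt_dq i).comm_iff _).2 h2.2).symm⟩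

/-- the group generated -/
def DD : Subgroup Fi24 := closure (Set.range dq)

theorem dq_DD (i : Fin 8) : dq i ∈ DD := subset_closure ⟨i, rfl⟩

theorem DD_le : DD ≤ Clk := by
  unfold DD
  rw [closure_le]
  rintro _ ⟨i, rfl⟩
  exact dq_Clk i

theorem DD_comm {g h : Fi24} (hg : g ∈ DD) (hh : h ∈ DD) : Commute g h := by
  have h1 : DD ≤ centralizer (DD : Set Fi24) := by
    have h2 : DD ≤ centralizer (Set.range dq) := by
      unfold DD
      rw [closure_le]
      rintro _ ⟨i, rfl⟩
      rw [SetLike.mem_coe, mem_centralizer_iff]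
      rintro _ ⟨j, rfl⟩
      exact (dq_comm j i).eq
    have h3 : centralizer (DD : Set Fi24) = centralizer (Set.range dq) := by
      unfold DD
      exact centralizer_closure _
    rw [h3]
    exact h2
  exact (mem_centralizer_iff.1 (h1 hh) g hg)

theorem DD_sq {g : Fi24} (hg : g ∈ DD) : g * g = 1 := by
  unfold DD at hg
  induction hg using closure_induction with
  | mem y hy =>
    obtain ⟨i, rfl⟩ := hy
    exact dq_sq i
  | one => exact mul_one 1
  | mul a b ha hb iha ihb =>
    have h := DD_comm (show a ∈ DD from ha) (show b ∈ DD from hb)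
    calc a * b * (a * b) = a * (b * a) * b := by group
      _ = a * (a * b) * b := by rw [h.eq]
      _ = (a * a) * (b * b) := by group
      _ = 1 := by rw [iha, ihb, mul_one]
  | inv a _ iha => rw [← mul_inv_rev, iha, inv_one]

theorem word_wA (A : List (Fin 8)) : word (wA A) = (A.map dq).prod := by
  induction A with
  | nil => exact word_nil
  | cons i A ih =>
    show word (W8 i ++ wA A) = _
    rw [word_append, ih]
    rfl

theorem prod_DD (A : List (Fin 8)) : (A.map dq).prod ∈ DD := by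
  apply list_prod_mem
  intro x hx
  obtain ⟨i, -, rfl⟩ := List.mem_map.1 hx
  exact dq_DD i

/-! ### The centralizer of the eight transpositions in `C(l, k)` -/

/-- the elements of `C(l, k)` commuting with the eight transpositions -/
def Q1 (g : Fi24) : Prop := g ∈ Clk ∧ ∀ i, Commute g (dq i)

theorem Q1.mul {g δ : Fi24} (h : Q1 g) (hδ : δ ∈ DD) : Q1 (δ * g) :=
  ⟨Clk.mul_mem (DD_le hδ) h.1, fun i => (DD_comm hδ (dq_DD i)).mul_left (h.2 i)⟩

theorem gen_Clk : ∀ x ∈ AL, gen x ∈ Clk := fun _ hx => B8_le_Clk (Cfsg.Agent.H840.Wd.gen_mem_cl hx)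

theorem exists_p {g : Fi24} (hg : g ∈ Clk) {x : Gen} (hx : gen x ∈ Clk) :
    ∃ p, M.testBit p = true ∧ IsPt (g * gen x * g⁻¹) p := by
  have h1 : gen x ∈ Dlk := mem_Dlk.2 ⟨Cfsg.Agent.H840.Lk.gen_mem x, hx⟩
  have h2 := Dlk_conj hg h1
  rw [← TS_M] at h2
  obtain ⟨p, hp, hd⟩ := h2
  exact ⟨p, hp, hd⟩

theorem fix_iff {g h : Fi24} {x : Gen} {p : ℕ} (hp : IsPt (g * gen x * g⁻¹) p) (hgh : Commute g h) :
    rho h p = p ↔ Commute h (gen x) := by
  rw [← hp.comm_iff]
  have e1 : g⁻¹ * (h * (g * gen x * g⁻¹)) * g = h * gen x := by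
    have := hgh.inv_left.eq
    calc g⁻¹ * (h * (g * gen x * g⁻¹)) * g = (g⁻¹ * h) * g * gen x := by group
      _ = (h * g⁻¹) * g * gen x := by rw [this]
      _ = _ := by group
  have e2 : g⁻¹ * ((g * gen x * g⁻¹) * h) * g = gen x * h := by
    have := hgh.inv_left.eq
    calc g⁻¹ * ((g * gen x * g⁻¹) * h) * g = gen x * (g⁻¹ * h) * g := by group
      _ = gen x * (h * g⁻¹) * g := by rw [this]
      _ = _ := by group
  constructor
  · intro h1
    have h2 : g⁻¹ * (h * (g * gen x * g⁻¹)) * g = g⁻¹ * ((g * gen x * g⁻¹) * h) * g := by rw [h1]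
    rw [e1, e2] at h2
    exact h2
  · intro h1
    have h2 : h * gen x = gen x * h := h1
    rw [← e1, ← e2] at h2
    exact mul_left_cancel (mul_right_cancel h2)

theorem sv_mem {w : List Gen} {A p : ℕ} (hA : A.testBit p = true) (hp : rho (word w) p = p) :
    (sv (nw w false) bl A).testBit p = true := by
  refine sv_spec (wok w false) bl hA ?_
  rw [← rho_word]
  exact hp

theorem comm_of_chk {x : Gen} {j : Fin 8} (h : chkPt (nw [x] false) (P8 j) (P8 j) = true) :
    Commute (dq j) (gen x) := (((isPt_dq j).comm_iff _).2 (chk_gen.1 h)).symm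

theorem ncomm_of_chk {x : Gen} {j : Fin 8} (h : (!(chkPt (nw [x] false) (P8 j) (P8 j))) = true) :
    ¬ Commute (dq j) (gen x) := fun h1 => chk_not h (((isPt_dq j).comm_iff _).1 h1.symm)

/-- from the point back to the letter -/
theorem back {g δ : Fi24} {x : Gen} {p : ℕ} (hp : IsPt (g * gen x * g⁻¹) p) (h : rho δ p = pn x) :
    Commute (δ * g) (gen x) := by
  have h1 := (hp.conj' h).inj (isPt_gen x)
  show δ * g * gen x = gen x * (δ * g)
  calc δ * g * gen x = (δ * (g * gen x * g⁻¹) * δ⁻¹) * (δ * g) := by group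
    _ = _ := by rw [h1]

theorem rel_of {x : Gen} {J J' : List (Fin 8)} (h : rlB x J J' = true) :
    (∀ j ∈ J, ¬ Commute (dq j) (gen x)) ∧ ∀ j ∈ J', Commute (dq j) (gen x) := by
  unfold rlB at h
  rw [Bool.and_eq_true, List.all_eq_true, List.all_eq_true] at h
  exact ⟨fun j hj => ncomm_of_chk (h.1 j hj), fun j hj => comm_of_chk (h.2 j hj)⟩

theorem ncd : ¬ Commute (gen .c) (gen .d) := by
  intro h
  exact chk_not rcd (((isPt_gen .d).comm_iff _).1 h)

theorem gcomm {x y : Gen} (h : Cfsg.Spor.coxLabel Cfsg.Spor.Fi24.edges x y = 2) : Commute (gen x) (gen y) :=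
  Cfsg.Agent.Fischer.Fi24Final.gen_comm h

theorem mv_of {J : List (Fin 8)} {cc : Bool} {A : List (List (Fin 8))} {x : Gen} {g : Fi24} {p : ℕ}
    (h : mvB J cc A (pn x) p = true) (hp : IsPt (g * gen x * g⁻¹) p) (hg : Q1 g)
    (hJ : ∀ j ∈ J, ¬ Commute (dq j) (gen x)) (hc : cc = true → Commute g (gen .c) ∧ ¬ Commute (gen .c) (gen x)) :
    ∃ B ∈ A, Commute ((B.map dq).prod * g) (gen x) := by
  unfold mvB at h
  rw [Bool.or_eq_true, Bool.or_eq_true, Bool.and_eq_true, List.any_eq_true, List.any_eq_true, chk_gen] at h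
  rcases h with ⟨j, hj, h⟩ | ⟨h1, h2⟩ | ⟨B, hB, h⟩
  · exact absurd ((fix_iff hp (hg.2 j)).1 (chk_iff.1 h)) (hJ j hj)
  · exact absurd ((fix_iff hp (hc h1).1).1 h2) (hc h1).2
  · refine ⟨B, hB, back hp ?_⟩
    rw [← word_wA]
    exact chk_iff.1 h

/-- membership in a sieved mask -/
theorem sv_gen {y x : Gen} {g : Fi24} {A p : ℕ} (hA : A.testBit p = true) (hp : IsPt (g * gen x * g⁻¹) p)
    (hgy : Commute g (gen y)) (hyx : Commute (gen y) (gen x)) : (sv (nw [y] false) bl A).testBit p = true := by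
  refine sv_mem hA ?_
  rw [word_single]
  exact (fix_iff hp hgy).2 hyx

theorem Q1.l {g : Fi24} (h : Q1 g) : Commute g (gen .l) := (mem_Clk.1 h.1).1
theorem Q1.k {g : Fi24} (h : Q1 g) : Commute g (gen .k) := (mem_Clk.1 h.1).2
theorem Q1.b {g : Fi24} (h : Q1 g) : Commute g (gen .b) := by rw [← dq_zero]; exact h.2 0
theorem Q1.g' {g : Fi24} (h : Q1 g) : Commute g (gen .g) := by rw [← dq_two]; exact h.2 2
theorem Q1.e {g : Fi24} (h : Q1 g) : Commute g (gen .e) := by rw [← dq_three]; exact h.2 3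
theorem Q1.h' {g : Fi24} (h : Q1 g) : Commute g (gen .h) := by rw [← dq_four]; exact h.2 4

theorem step_i {g : Fi24} (h : Q1 g) : ∃ A ∈ Ai, Commute ((A.map dq).prod * g) (gen .i) := by
  obtain ⟨p, hp, hd⟩ := exists_p h.1 (x := .i) (gen_Clk .i (by decide))
  have h1 := sv_gen (bit hd) hd h.l (gcomm (by decide))
  have h2 := sv_gen h1 hd h.k (gcomm (by decide))
  have h3 := sv_gen h2 hd h.b (gcomm (by decide))
  have h4 := sv_gen h3 hd h.g' (gcomm (by decide))
  have h5 := sv_gen h4 hd h.e (gcomm (by decide))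
  have hs := svi
  rw [seqB_eq, seqB_eq, seqB_eq, seqB_eq] at hs
  rw [Nat.eq_of_beq_eq_true hs, testBit_msk] at h5
  have hm := mvi
  rw [List.all_eq_true] at hm
  exact mv_of (x := .i) (hm p h5) hd h (rel_of rli).1 (fun h => absurd h (by decide))

theorem step_c {g : Fi24} (h : Q1 g) (hi : Commute g (gen .i)) : ∃ A ∈ Ac, Commute ((A.map dq).prod * g) (gen .c) := by
  obtain ⟨p, hp, hd⟩ := exists_p h.1 (x := .c) (gen_Clk .c (by decide))
  have h1 := sv_gen (bit hd) hd h.l (gcomm (by decide))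
  have h2 := sv_gen h1 hd h.k (gcomm (by decide))
  have h3 := sv_gen h2 hd h.g' (gcomm (by decide))
  have h4 := sv_gen h3 hd h.e (gcomm (by decide))
  have h5 := sv_gen h4 hd h.h' (gcomm (by decide))
  have h6 := sv_gen h5 hd hi (gcomm (by decide))
  have hs := svc
  rw [seqB_eq, seqB_eq, seqB_eq, seqB_eq, seqB_eq] at hs
  rw [Nat.eq_of_beq_eq_true hs, testBit_msk] at h6
  have hm := mvc
  rw [List.all_eq_true] at hm
  exact mv_of (x := .c) (hm p h6) hd h (rel_of rlc).1 (fun h => absurd h (by decide))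

theorem step_d {g : Fi24} (h : Q1 g) (hi : Commute g (gen .i)) (hc : Commute g (gen .c)) :
    ∃ A ∈ Ad, Commute ((A.map dq).prod * g) (gen .d) := by
  obtain ⟨p, hp, hd⟩ := exists_p h.1 (x := .d) (gen_Clk .d (by decide))
  have h1 := sv_gen (bit hd) hd h.l (gcomm (by decide))
  have h2 := sv_gen h1 hd h.k (gcomm (by decide))
  have h3 := sv_gen h2 hd h.b (gcomm (by decide))
  have h4 := sv_gen h3 hd h.g' (gcomm (by decide))
  have h5 := sv_gen h4 hd hi (gcomm (by decide))
  have hs := svd
  rw [seqB_eq, seqB_eq, seqB_eq, seqB_eq] at hs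
  rw [Nat.eq_of_beq_eq_true hs, testBit_msk] at h5
  have hm := mvd
  rw [List.all_eq_true] at hm
  exact mv_of (x := .d) (hm p h5) hd h (rel_of rld).1 (fun _ => ⟨hc, ncd⟩)

theorem step_f {g : Fi24} (h : Q1 g) (hi : Commute g (gen .i)) (hc : Commute g (gen .c)) (hgd : Commute g (gen .d)) :
    ∃ A ∈ Af, Commute ((A.map dq).prod * g) (gen .f) := by
  obtain ⟨p, hp, hd⟩ := exists_p h.1 (x := .f) (gen_Clk .f (by decide))
  have h1 := sv_gen (bit hd) hd h.l (gcomm (by decide))
  have h2 := sv_gen h1 hd h.k (gcomm (by decide))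
  have h3 := sv_gen h2 hd h.b (gcomm (by decide))
  have h4 := sv_gen h3 hd h.h' (gcomm (by decide))
  have h5 := sv_gen h4 hd hi (gcomm (by decide))
  have h6 := sv_gen h5 hd hc (gcomm (by decide))
  have h7 := sv_gen h6 hd hgd (gcomm (by decide))
  have hs := svf
  rw [seqB_eq, seqB_eq, seqB_eq, seqB_eq, seqB_eq, seqB_eq] at hs
  rw [Nat.eq_of_beq_eq_true hs, testBit_msk] at h7
  have hm := mvf
  rw [List.all_eq_true] at hm
  exact mv_of (x := .f) (hm p h7) hd h (rel_of rlf).1 (fun h => absurd h (by decide))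

/-- an element of `C(l, k)` commuting with `b, …, i` is `1` or `zc` -/
theorem eq_one_or {g : Fi24} (hg : g ∈ Clk) (h : ∀ x ∈ AL, Commute g (gen x)) : g = 1 ∨ g = zc := by
  have h1 : ∀ k, g * s8 k = s8 k * g := by
    intro k
    have h2 : node8 k ∈ AL := by revert k; decide
    exact h _ h2
  have h2 : Commute g zc := comm_zc h1
  have h3 : g ∈ B8 := by
    rw [← Clz_eq]
    exact ⟨hg, mem_centralizer_singleton_iff.2 h2.eq⟩
  obtain ⟨y, hy⟩ := Cfsg.Agent.H840.Width.B8_cases h3
  have hzc : ∀ k, zc * s8 k = s8 k * zc := fun k => zc_comm k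
  have h4 : ∀ k, phi y * t8 k = t8 k * phi y := by
    intro k
    have hp : phi y = g ∨ phi y = zc * g := by
      rcases hy with h5 | h5
      · exact Or.inl h5.symm
      · right; rw [h5, ← mul_assoc, zc_sq, one_mul]
    show phi y * (zc * s8 k) = (zc * s8 k) * phi y
    have c1 : Commute g (zc * s8 k) := h2.mul_right (h1 k)
    have c2 : Commute zc (zc * s8 k) := (Commute.refl zc).mul_right (hzc k)
    rcases hp with h5 | h5
    · rw [h5]; exact c1
    · rw [h5]; exact (c2.mul_left c1)
  have h5 : y ∈ center H8 := by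
    rw [mem_center_iff]
    intro z
    have hz : z ∈ closure (Set.range x8) := by rw [closure_x8]; exact mem_top z
    induction hz using closure_induction with
    | mem w hw =>
      obtain ⟨i, rfl⟩ := hw
      apply phi_injective
      rw [map_mul, map_mul, phi_x8]
      exact (h4 i).symm
    | one => rw [one_mul, mul_one]
    | mul a b _ _ ha hb => rw [mul_assoc, hb, ← mul_assoc, ha, mul_assoc]
    | inv a _ ha =>
      have : Commute a y := ha
      exact this.inv_left
  rw [center_H8, mem_bot] at h5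
  rw [h5, map_one, mul_one] at hy
  exact hy

/-- **An element of `C(l, k)` commuting with the eight transpositions is a product of them.** -/
theorem mem_DD {g : Fi24} (h : Q1 g) : g ∈ DD := by
  obtain ⟨A, hA, hi⟩ := step_i h
  have h1 := h.mul (prod_DD A)
  obtain ⟨A', hA', hc⟩ := step_c h1 hi
  have h2 := h1.mul (prod_DD A')
  have key1 : ∀ A' ∈ Ac, Commute (A'.map dq).prod (gen .i) := by
    intro A' hA'
    simp only [Ac, List.mem_cons, List.not_mem_nil, or_false] at hA'
    rcases hA' with rfl | rfl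
    · exact Commute.one_left _
    · simpa using (rel_of rli).2 0 (by decide)
  have hi2 := (key1 A' hA').mul_left hi
  obtain ⟨A'', hA'', hd⟩ := step_d h2 hi2 hc
  have h3 := h2.mul (prod_DD A'')
  have key2 : ∀ A' ∈ Ad, Commute (A'.map dq).prod (gen .i) ∧ Commute (A'.map dq).prod (gen .c) := by
    intro A' hA'
    simp only [Ad, List.mem_cons, List.not_mem_nil, or_false] at hA'
    rcases hA' with rfl | rfl
    · exact ⟨Commute.one_left _, Commute.one_left _⟩
    · exact ⟨by simpa using (rel_of rli).2 3 (by decide), by simpa using (rel_of rlc).2 3 (by decide)⟩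
  have hi3 := (key2 A'' hA'').1.mul_left hi2
  have hc3 := (key2 A'' hA'').2.mul_left hc
  obtain ⟨A3, hA3, hf⟩ := step_f h3 hi3 hc3 hd
  have h4 := h3.mul (prod_DD A3)
  have key3 : ∀ A' ∈ Af, Commute (A'.map dq).prod (gen .i) ∧ Commute (A'.map dq).prod (gen .c) ∧
      Commute (A'.map dq).prod (gen .d) := by
    intro A' hA'
    simp only [Af, List.mem_cons, List.not_mem_nil, or_false] at hA'
    rcases hA' with rfl | rfl
    · exact ⟨Commute.one_left _, Commute.one_left _, Commute.one_left _⟩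
    · exact ⟨by simpa using (rel_of rli).2 2 (by decide), by simpa using (rel_of rlc).2 2 (by decide),
        by simpa using (rel_of rld).2 2 (by decide)⟩
  have hi4 := (key3 A3 hA3).1.mul_left hi3
  have hc4 := (key3 A3 hA3).2.1.mul_left hc3
  have hd4 := (key3 A3 hA3).2.2.mul_left hd
  set δ : Fi24 := (A3.map dq).prod * ((A''.map dq).prod * ((A'.map dq).prod * (A.map dq).prod)) with hδ
  have hδm : δ ∈ DD := DD.mul_mem (prod_DD _) (DD.mul_mem (prod_DD _) (DD.mul_mem (prod_DD _) (prod_DD _)))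
  have e : (A3.map dq).prod * ((A''.map dq).prod * ((A'.map dq).prod * ((A.map dq).prod * g))) = δ * g := by
    rw [hδ]; simp only [mul_assoc]
  rw [e] at h4 hi4 hc4 hd4 hf
  have h5 : δ * g = 1 ∨ δ * g = zc := by
    refine eq_one_or h4.1 ?_
    intro x hx
    simp only [AL, List.mem_cons, List.not_mem_nil, or_false] at hx
    rcases hx with rfl | rfl | rfl | rfl | rfl | rfl | rfl | rfl
    · exact h4.b
    · exact hc4
    · exact hd4
    · exact h4.e
    · exact hf
    · exact h4.g'
    · exact h4.h'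
    · exact hi4
  have h6 : δ * g ∈ DD := by
    rcases h5 with h5 | h5
    · rw [h5]; exact one_mem _
    · rw [h5, ← dq_one]; exact dq_DD 1
  have h7 := DD.mul_mem (DD.inv_mem hδm) h6
  rwa [inv_mul_cancel_left] at h7

end Cfsg.Agent.H834.R4
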