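import Cfsg.Agent.H834.R4.Norm
import Cfsg.Agent.H265.TF.Zeta

/-!
# `3.Fi24'`: elements of order 7 of `C(l, k)` and the pairing with `s0 = l k` (helper834)

* `z7` : an element of order 7 commuting with `l`, `k` and `c0`;
* `exists_c` : every `x ∈ C(l, k)` with `x ^ 7 = 1` commutes with some `c` with `Tri p c s0`.
-/

set_option autoImplicit false
set_option maxRecDepth 100000
set_option exponentiation.threshold 30000

namespace Cfsg.Agent.H834.R4

open Cfsg Cfsg.Agent.Lib.PermNet Cfsg.Agent.Lib.PermNetPt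
open Cfsg.Agent.Fischer.Fi24RepDef hiding c0
open Cfsg.Agent.Fischer.Fi24Rep
open Cfsg.Agent.Fischer.Fi24Spider (word_append word_cons word_nil)
open Cfsg.Agent.KFacts.FiTF.Pts Cfsg.Agent.KFacts.FiTF.FixMask
open Cfsg.Agent.KFacts.FiTF.Defs (tr)
open Cfsg.Agent.R08.FiTwentyFour (L)
open Cfsg.Agent.LThreeFi24.FiveConj (eqB eq_of_eqB)
open Cfsg.Agent.H827.CocoD (word_mem)
open Cfsg.Agent.H265.TF (wK tpw cw0 sw0 s0 c0 Tri Good)
open Cfsg.Agent.H840.Lk
open Cfsg.Spor (Fi24)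
open Cfsg.Spor.Fi24 (Gen)
open Subgroup Equiv

/-- half of the word of the transposition in `c0` -/
def tu : List Gen := [.a,.b,.c,.d,.h,.i,.e,.d,.h,.f,.g,.e,.f,.c,.d,.e,.b,.c,.d,.h,.i,.f,.d,.e,.b,.c,.d,.h,.j,.g,.f,.e,.d,
  .c,.b]

theorem tpw_eq : tpw = tu ++ .a :: tu.reverse := by decide

theorem tu_chk : chkPt (nw tu false) 1 25345 = true := by decide +kernel

theorem isPt_tp : IsPt (word tpw) 25345 := by
  rw [tpw_eq]
  exact isPt_tr (u := tu) (x := .a) tu_chk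

def g7 : List Gen := [.g,.i,.c,.d,.h,.e,.d,.c,.a,.b,.k,.a,.l,.k,.l,.k,.l,.a,.k,.b,.a,.c,.d,.e,.h,.d,.c,.f]
def y7 : List Gen := [.i, .h, .d, .e, .f, .g]
def x7 : List Gen := g7.reverse ++ (y7 ++ g7)

theorem x7_l : chkPt (nw x7 false) 0 0 = true := by decide +kernel
theorem x7_k : chkPt (nw x7 false) 307872 307872 = true := by decide +kernel
theorem x7_b : chkPt (nw x7 false) 193 193 = true := by decide +kernel
theorem x7_t : chkPt (nw x7 false) 25345 25345 = true := by decide +kernel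
theorem y7_seven : eqB (y7 ++ (y7 ++ (y7 ++ (y7 ++ (y7 ++ (y7 ++ y7)))))) [] = true := by decide +kernel
theorem y7_ne : (!(chkPt (nw y7 false) 176 176)) = true := by decide +kernel

/-- an element of order 7 -/
noncomputable def z7 : Fi24 := word x7

theorem z7_eq : z7 = (word g7)⁻¹ * word y7 * (word g7)⁻¹⁻¹ := by
  unfold z7 x7
  rw [word_append, word_append, word_reverse, inv_inv, mul_assoc]

theorem z7_seven : z7 ^ 7 = 1 := by
  have h := eq_of_eqB y7_seven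
  simp only [word_append, word_nil] at h
  have h1 : word y7 ^ 7 = 1 := by
    rw [← h]
    simp only [pow_succ, pow_zero, one_mul, mul_assoc]
  rw [z7_eq, conj_pow, h1]
  group

theorem z7_ne : z7 ≠ 1 := by
  intro h
  rw [z7_eq] at h
  have h1 : word y7 = 1 := by
    have h2 := congrArg (fun g => word g7 * g * (word g7)⁻¹) h
    calc word y7 = word g7 * ((word g7)⁻¹ * word y7 * (word g7)⁻¹⁻¹) * (word g7)⁻¹ := by group
      _ = word g7 * 1 * (word g7)⁻¹ := h2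
      _ = 1 := by group
  have h3 := y7_ne
  have h4 : chkPt (nw y7 false) 176 176 = true := chk_iff.2 (by rw [h1]; exact congrFun (congrArg _ (map_one rho)) 176)
  rw [h4] at h3
  exact absurd h3 (by decide)

theorem z7_b : Commute z7 (gen .b) := ((isPt_gen .b).comm_iff _).2 (chk_iff.1 x7_b)
theorem z7_t : Commute z7 (word tpw) := (isPt_tp.comm_iff _).2 (chk_iff.1 x7_t)

theorem z7_Clk : z7 ∈ Clk := by
  rw [mem_Clk]
  exact ⟨((isPt_gen .l).comm_iff _).2 (chk_iff.1 x7_l), ((isPt_gen .k).comm_iff _).2 (chk_iff.1 x7_k)⟩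

theorem z7_c0 : Commute z7 (c0 : Fi24) := by
  show Commute z7 (word (.b :: tpw))
  rw [word_cons]
  exact z7_b.mul_right z7_t

theorem card_z7 : Nat.card (zpowers z7) = 7 ^ (Nat.card Clk).factorization 7 := by
  haveI : Fact (Nat.Prime 7) := ⟨by norm_num⟩
  rw [fac_seven, Nat.card_zpowers, pow_one]
  exact orderOf_eq_prime z7_seven z7_ne

universe u
variable {H : Type u} [Group H] {p : H →* Spor.Fi24'}

/-- **every element of order 7 of `C(l, k)` commutes with an element paired with `s0`** -/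
theorem exists_c (hs : Function.Surjective p) (h : Tri p c0 s0) {x : Fi24} (hx : x ∈ Clk) (h7 : x ^ 7 = 1) :
    ∃ c : Spor.Fi24', Tri p c s0 ∧ Commute (c : Fi24) x := by
  haveI : Fact (Nat.Prime 7) := ⟨by norm_num⟩
  have h1 : ∃ g ∈ Clk, g ∈ commutator Fi24 ∧ g * x * g⁻¹ ∈ zpowers z7 := by
    obtain ⟨g, hg, h2⟩ := conj_into (p := 7) (n := 1) (zpowers_le.2 z7_Clk) card_z7 hx (by rw [pow_one]; exact h7)
    by_cases hgc : g ∈ commutator Fi24
    · exact ⟨g, hg, hgc, h2⟩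
    · refine ⟨dq 0 * g, Clk.mul_mem (dq_Clk 0) hg, ?_, ?_⟩
      · rw [Subgroup.mul_mem_iff_of_index_two comm_index]
        exact iff_of_false odd_b hgc
      · obtain ⟨j, hj⟩ := mem_zpowers_iff.1 h2
        have e : dq 0 * g * x * (dq 0 * g)⁻¹ = dq 0 * (g * x * g⁻¹) * (dq 0)⁻¹ := by group
        have c1 : Commute (dq 0) (z7 ^ j) := by rw [dq_zero]; exact (z7_b.zpow_left j).symm
        rw [e, ← hj, c1.eq, mul_inv_cancel_right]
        exact ⟨j, rfl⟩
  obtain ⟨g, hg, hgc, h2⟩ := h1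
  obtain ⟨j, hj⟩ := mem_zpowers_iff.1 h2
  set k : Spor.Fi24' := ⟨g, hgc⟩ with hk
  have hcs : k⁻¹ * s0 * k⁻¹⁻¹ = s0 := by
    rw [mul_inv_eq_iff_eq_mul]
    apply Subtype.ext
    show g⁻¹ * word [.l, .k] = word [.l, .k] * g⁻¹
    have h3 := mem_Clk.1 (Clk.inv_mem hg)
    have h4 : Commute g⁻¹ (gen .l * gen .k) := (show Commute g⁻¹ (gen .l) from h3.1).mul_right h3.2
    rw [word_cons, word_cons, word_nil, mul_one]
    exact h4
  refine ⟨k⁻¹ * c0 * k⁻¹⁻¹, ?_, ?_⟩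
  · have h3 := h.conj hs k⁻¹
    rwa [hcs] at h3
  · have e : x = g⁻¹ * (z7 ^ j) * g⁻¹⁻¹ := by rw [hj]; group
    rw [e]
    show Commute (g⁻¹ * (c0 : Fi24) * g⁻¹⁻¹) (g⁻¹ * (z7 ^ j) * g⁻¹⁻¹)
    exact (SemiconjBy.conj_iff (a := (c0 : Fi24)) (x := z7 ^ j) (y := z7 ^ j) (b := g⁻¹)).2
      (z7_c0.zpow_left j).symm

end Cfsg.Agent.H834.R4
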